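import Cfsg.Agent.TwF4Max.Moved

/-!
The subgroup over the small field is maximal in ²E₆(q) (owner: helper78).
-/

set_option autoImplicit false
set_option linter.unusedSectionVars false

namespace Cfsg.Agent.TwF4Max

open Cfsg.Lie Cfsg.Agent.ChevGrp Cfsg.Agent.ChevTw

theorem levTab :
    (∀ e ∈ [(([] : List ℕ), 46, 70, (-1 : ℤ), 39), ([1], 47, 69, 1, 42), ([2, 1], 51, 65, 1, 56)],
      act chevE6 (wd e.1) 46 = e.2.1 ∧ chevE6.commTerms 0 e.2.2.1 = [(chevE6.neg e.2.1, e.2.2.2.1, 1, 1)] ∧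
      (e.2.2.2.1 = 1 ∨ e.2.2.2.1 = -1) ∧
      (e.2.2.1 ∈ qList ∧ twE6.root e.2.2.1 = e.2.2.1 ∧ e.2.2.1 ≠ 0 ∧ e.2.2.1 ≠ chevE6.neg 0) ∧
      (e.2.1 ∈ qList ∧ twE6.root e.2.1 = e.2.1 ∧ act chevE6 (wd e.1) 25 = chevE6.neg e.2.1) ∧
      e.2.2.2.2 < 72 ∧
      act chevE6 (wd e.1 ++ (wd [0] ++ (wd e.1).reverse)) e.2.2.2.2 ∈ qList ∧
      act chevE6 (wd e.1 ++ (wd [0] ++ (wd e.1).reverse)) (twE6.root e.2.2.2.2) ∈ qList) ∧
    ((∀ r ∈ qList, act chevE6 (wd [3]) r ∈ qList) ∧ act chevE6 (wd [3]) 66 = 55 ∧ act chevE6 (wd [3]) 0 = 0 ∧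
      ∀ r ∈ qList, act chevE6 (wd [3]) r = act chevE6 (wd [3]) 66 → r = 66) ∧
    (act chevE6 (wd [3, 1, 2, 0, 1, 2, 3, 2]) 66 = 42 ∧ act chevE6 (wd [2]) 42 = 29 ∧
      act chevE6 (wd [2, 3]) 42 = 56 ∧ act chevE6 (wd [2, 3, 2]) 42 = 15 ∧
      twE6.root 42 = 37 ∧ twE6.root 56 = 36 ∧ twE6.root 29 = 34 ∧ twE6.root 15 = 35 ∧
      chevE6.simple 2 = 42 ∧ chevE6.cartan 3 42 = -1 ∧ chevE6.simple 3 = 39) := by
  decide +kernel

variable {K : Type*} [Field K]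

theorem exists_X71 {z : GL chevE6.Idx K} (hz : z ∈ (glSys (rulesE6 K)).US ({71} : Set ℕ)) :
    ∃ t : K, z = X 71 t := by
  have h71 : 71 < chevE6.nroots := by rw [nroots6]; omega
  refine Subgroup.closure_induction (p := fun z _ => ∃ t : K, z = X 71 t) ?_
    ⟨0, ((glSys (rulesE6 K)).x_zero h71).symm⟩ ?_ ?_ hz
  · rintro _ ⟨r, rfl, t, rfl⟩; exact ⟨t, rfl⟩
  · rintro _ _ _ _ ⟨a, rfl⟩ ⟨b, rfl⟩
    exact ⟨a + b, (glSys (rulesE6 K)).x_add 71 h71 a b⟩
  · rintro _ _ ⟨a, rfl⟩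
    exact ⟨-a, (glSys (rulesE6 K)).x_inv h71 a⟩

theorem X71_central {g : GL chevE6.Idx K} (hg : g ∈ QS (K := K)) (t : K) : Commute g (X 71 t) := by
  refine Subgroup.closure_induction (p := fun g _ => Commute g (X 71 t)) ?_ (Commute.one_left _)
    (fun a b _ _ ha hb => ha.mul_left hb) (fun a _ ha => ha.inv_left) hg
  rintro _ ⟨r, hr, u, rfl⟩
  obtain ⟨h1, h2, h3⟩ := (by decide +kernel : ∀ r ∈ qList, r < 72 ∧ 71 ≠ chevE6.neg r ∧
    (r = 71 ∨ chevE6.commTerms r 71 = [])) r hr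
  by_cases e : r = 71
  · subst e
    exact ((glSys (rulesE6 K)).x_add 71 (nroots6 ▸ h1) u t).trans
      ((congrArg ((glSys (rulesE6 K)).x 71) (add_comm u t)).trans ((glSys (rulesE6 K)).x_add 71 (nroots6 ▸ h1) t u).symm)
  · exact x_commute (glSys (rulesE6 K)) (nroots6 ▸ h1) (by rw [nroots6]; omega) (Ne.symm e) h2
      (h3.resolve_left e) u t

/-- The radical is commutative up to the highest root group. -/
theorem comm_QS {g h : GL chevE6.Idx K} (hg : g ∈ QS (K := K)) (hh : h ∈ QS (K := K)) :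
    ∃ t : K, g * h * g⁻¹ = X 71 t * h := by
  set Z := (glSys (rulesE6 K)).US ({71} : Set ℕ) with hZ
  have hZc : ∀ z ∈ Z, ∀ g ∈ QS (K := K), g * z = z * g := fun z hz g hg => by
    obtain ⟨t, rfl⟩ := exists_X71 hz
    exact (X71_central hg t).eq
  have key : ∀ r ∈ qList, ∀ s ∈ qList, ∀ u v : K, X r u * X s v * (X r u)⁻¹ * (X s v)⁻¹ ∈ Z := by
    intro r hr s hs u v
    obtain ⟨hr', -, -⟩ := qTab.1.2 r hr
    obtain ⟨hs', -, -⟩ := qTab.1.2 s hs
    by_cases e : s = r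
    · subst e
      have h1 : X s u * X s v = X s v * X s u :=
        ((glSys (rulesE6 K)).x_add s (nroots6 ▸ hs') u v).trans
          ((congrArg ((glSys (rulesE6 K)).x s) (add_comm u v)).trans
            ((glSys (rulesE6 K)).x_add s (nroots6 ▸ hs') v u).symm)
      rw [h1, mul_inv_cancel_right, mul_inv_cancel]
      exact one_mem _
    · rw [conj_X hs' hr' e ((by decide +kernel : ∀ r ∈ qList, ∀ s ∈ qList, s ≠ chevE6.neg r) r hr s hs)]
      have hW : ((chevE6.commTerms r s).map fun c =>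
          X c.1 ((c.2.1 : K) * u ^ c.2.2.1 * v ^ c.2.2.2)).prod ∈ Z := list_prod_mem fun z hz => by
        obtain ⟨c, hc, rfl⟩ := List.mem_map.1 hz
        exact (glSys (rulesE6 K)).x_mem_US (T := ({71} : Set ℕ)) (qTab.2.1 r hr s hs c hc) _
      rw [hZc _ hW _ (X_mem_QS hs v), mul_inv_cancel_right]
      exact hW
  have key2 : ∀ r ∈ qList, ∀ u : K, ∀ h ∈ QS (K := K), X r u * h * (X r u)⁻¹ * h⁻¹ ∈ Z := by
    intro r hr u h hh
    refine Subgroup.closure_induction (p := fun h _ => X r u * h * (X r u)⁻¹ * h⁻¹ ∈ Z) ?_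
      (by simp [one_mem]) ?_ ?_ hh
    · rintro _ ⟨s, hs, v, rfl⟩; exact key r hr s hs u v
    · intro a b ha _ h1 h2
      have e : X r u * (a * b) * (X r u)⁻¹ * (a * b)⁻¹ =
          (X r u * a * (X r u)⁻¹ * a⁻¹) * (a * (X r u * b * (X r u)⁻¹ * b⁻¹) * a⁻¹) := by group
      rw [e, hZc _ h2 _ ha, mul_inv_cancel_right]
      exact mul_mem h1 h2
    · intro a ha h1
      have e : X r u * a⁻¹ * (X r u)⁻¹ * a⁻¹⁻¹ = a⁻¹ * (X r u * a * (X r u)⁻¹ * a⁻¹)⁻¹ * a⁻¹⁻¹ := by group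
      rw [e, hZc _ (inv_mem h1) _ (inv_mem ha), mul_inv_cancel_right]
      exact inv_mem h1
  have key3 : g * h * g⁻¹ * h⁻¹ ∈ Z := by
    have : ∀ h ∈ QS (K := K), g * h * g⁻¹ * h⁻¹ ∈ Z := by
      refine Subgroup.closure_induction (p := fun g _ => ∀ h ∈ QS (K := K), g * h * g⁻¹ * h⁻¹ ∈ Z) ?_
        (by simp [one_mem]) ?_ ?_ hg
      · rintro _ ⟨r, hr, u, rfl⟩ h hh; exact key2 r hr u h hh
      · intro a b ha hb h1 h2 h hh
        have e : a * b * h * (a * b)⁻¹ * h⁻¹ = (a * (b * h * b⁻¹ * h⁻¹) * a⁻¹) * (a * h * a⁻¹ * h⁻¹) := by group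
        rw [e, hZc _ (h2 h hh) _ ha, mul_inv_cancel_right]
        exact mul_mem (h2 h hh) (h1 h hh)
      · intro a ha h1 h hh
        have e : a⁻¹ * h * a⁻¹⁻¹ * h⁻¹ = a⁻¹ * (a * h * a⁻¹ * h⁻¹)⁻¹ * a⁻¹⁻¹ := by group
        rw [e, hZc _ (inv_mem (h1 h hh)) _ (inv_mem ha), mul_inv_cancel_right]
        exact inv_mem (h1 h hh)
    exact this h hh
  obtain ⟨t, ht⟩ := exists_X71 key3
  exact ⟨t, by rw [← ht, inv_mul_cancel_right]⟩

section

variable [Fintype K] {q : ℕ} (hq : IsPrimePow q) (hK : Fintype.card K = q ^ 2)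

theorem conj_rad_mem {H : Subgroup (GL chevE6.Idx K)} (hle : Mq hq hK ≤ H) {u z : GL chevE6.Idx K}
    (hu : u ∈ QS (K := K)) (hus : (twistE6 hq hK).sig u = u) (hz : z ∈ QS (K := K)) (hzM : z ∈ Mq hq hK) :
    u * z * u⁻¹ ∈ H := by
  obtain ⟨t, e⟩ := comm_QS hu hz
  rw [e]
  refine mul_mem (hle (X_mem_Mq hq hK (by decide +kernel) (by decide +kernel) ?_)) (hle hzM)
  have hG := QS_le_Gbar (K := K) hu
  have hG' := QS_le_Gbar (K := K) hz
  have h71 : X 71 t ∈ (glSys (rulesE6 K)).Gbar := (glSys (rulesE6 K)).x_mem_Gbar (by rw [nroots6]; omega) _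
  have e' := congrArg (twistE6 hq hK).sig e
  rw [sig_conj hG hG' hus, (twistE6 hq hK).sig_mul _ h71 _ hG', Tw_fixed hq hK hzM.1,
    sig_X_fix hq hK (by omega) (by decide +kernel)] at e'
  exact X_inj (by omega) (mul_right_cancel (e'.symm.trans e))

/-- The Levi root elements of the subgroup are carried into the overgroup by the cell element. -/
theorem conj_lev_mem {H : Subgroup (GL chevE6.Idx K)} (hle : Mq hq hK ≤ H) {u : GL chevE6.Idx K} {c : K}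
    (hu : u ∈ QS (K := K)) (hus : (twistE6 hq hK).sig u = u) (hc : c ≠ 0) (hcq : c ^ q = c)
    (hy : u * X 0 c * u⁻¹ ∈ H) :
    ∀ e ∈ [(([] : List ℕ), 46, 70, (-1 : ℤ), 39), ([1], 47, 69, 1, 42), ([2, 1], 51, 65, 1, 56)],
      ∀ l ∈ Mq hq hK, (∃ t : K, l = X e.2.2.2.2 t ∨ l = Gp (q := q) e.2.2.2.2 t) → u * l * u⁻¹ ∈ H := by
  rintro ⟨ks, L, L', C, s⟩ he l hlM hl
  obtain ⟨h46, hcomm, hC, ⟨hL', hL'f, hL'0, hL'n⟩, ⟨hL, hLf, h25⟩, hs, hsQ, hsQ'⟩ := levTab.1 _ he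
  dsimp only at h46 hcomm hC hL' hL'f hL'0 hL'n hL hLf h25 hs hsQ hsQ' hl
  set S := glSys (rulesE6 K) with hS
  set P : Subgroup (GL chevE6.Idx K) := H.comap (MulAut.conj u).toMonoidHom with hP
  have hQP : ∀ z ∈ QS (K := K), z ∈ Mq hq hK → z ∈ P := fun z hz hzM => conj_rad_mem hq hK hle hu hus hz hzM
  have h0P : X 0 c ∈ P := hy
  have hneg : X (chevE6.neg L) ((C : K) * c) ∈ P := by
    have h1 : X L' (1 : K) ∈ P := hQP _ (X_mem_QS hL' _)
      (X_mem_Mq hq hK (qTab.1.2 L' hL').2.1 hL'f (one_pow q))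
    have e := conj_X (K := K) (r := L') (s := 0) (qTab.1.2 L' hL').1 (by omega) hL'0 hL'n 1 c
    rw [hcomm] at e
    simp only [List.map_cons, List.map_nil, List.prod_cons, List.prod_nil, mul_one, pow_one] at e
    have e2 : X (chevE6.neg L) ((C : K) * c) = (X L' (1 : K))⁻¹ * (X 0 c * X L' 1 * (X 0 c)⁻¹) := by
      rw [e, inv_mul_cancel_left]
    rw [e2]
    exact mul_mem (inv_mem h1) (mul_mem (mul_mem h0P h1) (inv_mem h0P))
  set m := S.nW (wd ks) with hm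
  have hmM : m ∈ Mq hq hK := nW_mem hq hK (ks.map oJ)
  obtain ⟨a, ha0, ha⟩ := S.conjP_nW (rulesE6 K) hR6 (wd ks)
  obtain ⟨a25, a25q⟩ := coef_pow hq hK hmM ha0 ha (r := 25) (by omega)
  obtain ⟨a46, a46q⟩ := coef_pow hq hK hmM ha0 ha (r := 46) (by omega)
  have hCne : (C : K) ≠ 0 := by rcases hC with rfl | rfl <;> simp
  have hCq : (C : K) ^ q = C := by rw [← frobE6_apply hq hK, map_intCast]
  set τ : K := -(a 25) / ((C : K) * c) with hτ
  have hτ0 : τ ≠ 0 := div_ne_zero (neg_ne_zero.2 a25) (mul_ne_zero hCne hc)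
  have hτq : τ ^ q = τ := by
    rw [hτ, ← frobE6_apply hq hK, map_div₀, map_mul, map_neg, map_intCast, frobE6_apply, frobE6_apply, a25q, hcq]
  set n := m * S.nEl 46 τ * m⁻¹ with hn
  have hnM : n ∈ Mq hq hK := mul_mem (mul_mem hmM (nEl_fix_mem hq hK (by simp) hτq)) (inv_mem hmM)
  have hnP : n ∈ P := by
    have h46' : 46 < chevE6.nroots := by rw [nroots6]; omega
    have e1 : m * X 46 τ * m⁻¹ = X L (a 46 * τ) := by
      have := ha 46 h46' τ; rw [h46] at this; exact this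
    have e2 : m * X (chevE6.neg 46) (-τ⁻¹) * m⁻¹ = X (chevE6.neg L) ((C : K) * c) := by
      rw [show chevE6.neg 46 = 25 from by decide +kernel]
      have := ha 25 (by rw [nroots6]; omega) (-τ⁻¹)
      rw [h25] at this
      refine this.trans (congrArg _ ?_)
      rw [hτ]
      field_simp
    have e : n = (m * X 46 τ * m⁻¹) * (m * X (chevE6.neg 46) (-τ⁻¹) * m⁻¹) * (m * X 46 τ * m⁻¹) := by
      rw [hn, Sys.nEl]; group
      rfl
    rw [e, e1, e2]
    have hP1 : X L (a 46 * τ) ∈ P := hQP _ (X_mem_QS hL _)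
      (X_mem_Mq hq hK (qTab.1.2 L hL).2.1 hLf (by rw [mul_pow, a46q, hτq]))
    exact mul_mem (mul_mem hP1 hneg) hP1
  have hcn : S.ConjP (S.nEl 46 τ) (wd [0]) := by
    have h1 : chevE6.simple (⟨1, by decide⟩ : Fin chevE6.rank).val = 46 := movTab.2.2.2.2.1
    rw [← h1, S.nEl_eq hR6 (hR6.simple_lt _ (by decide))]
    have := (S.conjP_Hbar (rulesE6 K) hR6 (S.hEl_simple_mem ⟨1, by decide⟩ hτ0)).mul hR6
      (S.conjP_nI (rulesE6 K) hR6 ⟨1, by decide⟩)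
    exact this
  have hcp : S.ConjP n (wd ks ++ (wd [0] ++ (wd ks).reverse)) := by
    rw [hn, mul_assoc]
    exact (S.conjP_nW (rulesE6 K) hR6 (wd ks)).mul hR6 (hcn.mul hR6 ((S.conjP_nW (rulesE6 K) hR6 (wd ks)).inv hR6))
  obtain ⟨b, hb0, hb⟩ := hcp
  have hs' : s < chevE6.nroots := nroots6 ▸ hs
  have hrs : twE6.root s < chevE6.nroots := nroots6 ▸ (rhoTab.1 s hs).1
  have hconjQ : n * l * n⁻¹ ∈ QS (K := K) := by
    obtain ⟨t, rfl | rfl⟩ := hl
    · rw [show n * X s t * n⁻¹ = _ from hb s hs' t]; exact X_mem_QS hsQ _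
    · have e : n * Gp (q := q) s t * n⁻¹ = (n * X s t * n⁻¹) *
          (n * X (twE6.root s) ((symE6.sgn s : K) * t ^ q) * n⁻¹) := by rw [Gp]; group
      rw [e, show n * X s t * n⁻¹ = _ from hb s hs' t, show n * X (twE6.root s) _ * n⁻¹ = _ from hb _ hrs _]
      exact mul_mem (X_mem_QS hsQ _) (X_mem_QS hsQ' _)
  have h := mul_mem (mul_mem (inv_mem hnP) (hQP _ hconjQ (mul_mem (mul_mem hnM hlM) (inv_mem hnM)))) hnP
  have e : n⁻¹ * (n * l * n⁻¹) * n = l := by group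
  rw [e] at h
  exact h

theorem dev_low {g : GL chevE6.Idx K} (h0 : dev (q := q) g 48 = 0) (h1 : dev (q := q) g 49 = 0)
    (h2 : dev (q := q) g 52 = 0) (h3 : dev (q := q) g 54 = 0) (h4 : dev (q := q) g 55 = 0) :
    ∀ j : Fin 6, j ≠ 5 → dev (q := q) g (rep j) = 0 := by
  intro j hj
  fin_cases j
  exacts [h0, h1, h2, h3, h4, absurd rfl hj]

theorem dev_top {g : GL chevE6.Idx K} (h0 : ∀ j : Fin 6, j ≠ 5 → dev (q := q) g (rep j) = 0)
    (h : ∃ i : Fin 6, dev (q := q) g (rep i) ≠ 0) : dev (q := q) g (rep 5) ≠ 0 := by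
  obtain ⟨i, hi⟩ := h
  by_cases e : i = 5
  · exact e ▸ hi
  · exact absurd (h0 i e) hi

/-- The overgroup contains a non-rational top pair. -/
theorem exists_top {H : Subgroup (GL chevE6.Idx K)} (hle : Mq hq hK ≤ H) (hH : H ≤ twistedE6 K q)
    (hne : ¬ H ≤ Mq hq hK) : ∃ t : K, t ^ q ≠ t ∧ Gp (q := q) 66 t ∈ H := by
  have mA : Gp (q := q) 56 (1 : K) ∈ Mq hq hK := simple_pair_mem_Mq hq hK (by simp) (one_pow q)
  have mB : Gp (q := q) 42 (1 : K) ∈ Mq hq hK := simple_pair_mem_Mq hq hK (by simp) (one_pow q)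
  have mC : X 39 (1 : K) ∈ Mq hq hK := simple_mem_Mq hq hK (by simp) (one_pow q)
  -- climbing
  have S5 : ∀ g ∈ H, g ∈ QS (K := K) → (∀ i : Fin 6, i ≠ 5 → dev (q := q) g (rep i) = 0) →
      dev (q := q) g (rep 5) ≠ 0 → ∃ t : K, t ^ q ≠ t ∧ Gp (q := q) 66 t ∈ H := by
    intro g hg hgQ h0 h5
    obtain ⟨m, hm, e⟩ := split_top hq hK hgQ (Tw_fixed hq hK (hH hg)) h0
    refine ⟨cf 66 g, fun h => h5 (sub_eq_zero.2 h), ?_⟩
    have := mul_mem (inv_mem (hle hm)) hg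
    rwa [e, inv_mul_cancel_left] at this
  have stA : ∀ g ∈ H, g ∈ QS (K := K) → ∃ g' ∈ H, g' ∈ QS (K := K) ∧ ∀ i, dev (q := q) g' (rep i) =
      ![0, dev (q := q) g 48, 0, 0, 0, -dev (q := q) g 55] i := fun g hg hgQ =>
    ⟨_, mul_mem (mul_mem (mul_mem (hle mA) hg) (inv_mem (hle mA))) (inv_mem hg),
      op_a hq hK hgQ (Tw_fixed hq hK (hH hg))⟩
  have stB : ∀ g ∈ H, g ∈ QS (K := K) → ∃ g' ∈ H, g' ∈ QS (K := K) ∧ ∀ i, dev (q := q) g' (rep i) =
      ![0, 0, dev (q := q) g 49, 0, dev (q := q) g 54, 0] i := fun g hg hgQ =>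
    ⟨_, mul_mem (mul_mem (mul_mem (hle mB) hg) (inv_mem (hle mB))) (inv_mem hg),
      op_b hq hK hgQ (Tw_fixed hq hK (hH hg))⟩
  have stC : ∀ g ∈ H, g ∈ QS (K := K) → ∃ g' ∈ H, g' ∈ QS (K := K) ∧ ∀ i, dev (q := q) g' (rep i) =
      ![0, 0, 0, dev (q := q) g 52, 0, 0] i := fun g hg hgQ =>
    ⟨_, mul_mem (mul_mem (mul_mem (hle mC) hg) (inv_mem (hle mC))) (inv_mem hg), op_c hq hK hgQ⟩
  have S4 : ∀ g ∈ H, g ∈ QS (K := K) → dev (q := q) g 48 = 0 → dev (q := q) g 55 ≠ 0 →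
      ∃ t : K, t ^ q ≠ t ∧ Gp (q := q) 66 t ∈ H := by
    intro g hg hgQ h0 h4
    obtain ⟨g', hg', hgQ', e⟩ := stA g hg hgQ
    exact S5 g' hg' hgQ' (dev_low (e 0) ((e 1).trans h0) (e 2) (e 3) (e 4))
      (fun h => h4 (neg_eq_zero.1 ((e 5).symm.trans h)))
  have S3 : ∀ g ∈ H, g ∈ QS (K := K) → dev (q := q) g 54 ≠ 0 →
      ∃ t : K, t ^ q ≠ t ∧ Gp (q := q) 66 t ∈ H := by
    intro g hg hgQ h3
    obtain ⟨g', hg', hgQ', e⟩ := stB g hg hgQ
    exact S4 g' hg' hgQ' (e 0) (fun h => h3 ((e 4).symm.trans h))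
  have S2 : ∀ g ∈ H, g ∈ QS (K := K) → dev (q := q) g 52 ≠ 0 →
      ∃ t : K, t ^ q ≠ t ∧ Gp (q := q) 66 t ∈ H := by
    intro g hg hgQ h2
    obtain ⟨g', hg', hgQ', e⟩ := stC g hg hgQ
    exact S3 g' hg' hgQ' (fun h => h2 ((e 3).symm.trans h))
  have S1 : ∀ g ∈ H, g ∈ QS (K := K) → dev (q := q) g 49 ≠ 0 →
      ∃ t : K, t ^ q ≠ t ∧ Gp (q := q) 66 t ∈ H := by
    intro g hg hgQ h1
    obtain ⟨g', hg', hgQ', e⟩ := stB g hg hgQ
    exact S2 g' hg' hgQ' (fun h => h1 ((e 2).symm.trans h))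
  have S0 : ∀ g ∈ H, g ∈ QS (K := K) → dev (q := q) g 48 ≠ 0 →
      ∃ t : K, t ^ q ≠ t ∧ Gp (q := q) 66 t ∈ H := by
    intro g hg hgQ h0
    obtain ⟨g', hg', hgQ', e⟩ := stA g hg hgQ
    exact S1 g' hg' hgQ' (fun h => h0 ((e 1).symm.trans h))
  have climb : ∀ g ∈ H, g ∈ QS (K := K) → (∃ i, dev (q := q) g (rep i) ≠ 0) →
      ∃ t : K, t ^ q ≠ t ∧ Gp (q := q) 66 t ∈ H := by
    intro g hg hgQ hi
    by_cases h0 : dev (q := q) g 48 = 0
    swap; · exact S0 g hg hgQ h0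
    by_cases h1 : dev (q := q) g 49 = 0
    swap; · exact S1 g hg hgQ h1
    by_cases h2 : dev (q := q) g 52 = 0
    swap; · exact S2 g hg hgQ h2
    by_cases h3 : dev (q := q) g 54 = 0
    swap; · exact S3 g hg hgQ h3
    by_cases h4 : dev (q := q) g 55 = 0
    swap; · exact S4 g hg hgQ h0 h4
    exact S5 g hg hgQ (dev_low h0 h1 h2 h3 h4) (dev_top (dev_low h0 h1 h2 h3 h4) hi)
  -- the first element
  have first : ∀ u ∈ QS (K := K), ∀ c : K, c ≠ 0 → c ^ q = c → (twistE6 hq hK).sig u = u →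
      u * X 0 c * u⁻¹ ∈ H →
      (dev (q := q) u 48 ≠ 0 ∨ dev (q := q) u 49 ≠ 0 ∨ dev (q := q) u 52 ≠ 0 ∨ dev (q := q) u 54 ≠ 0 ∨
        dev (q := q) u 55 ≠ 0) → ∃ t : K, t ^ q ≠ t ∧ Gp (q := q) 66 t ∈ H := by
    intro u hu c hc hcq hus hy hdev
    have hL := conj_lev_mem hq hK hle hu hus hc hcq hy
    have mem : ∀ l ∈ Mq hq hK, u * l * u⁻¹ ∈ H → l * u * l⁻¹ * u⁻¹ ∈ H := by
      intro l hl h
      have := mul_mem (hle hl) (inv_mem h)
      simpa [mul_assoc] using this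
    rcases hdev with h | h | h | h | h
    · obtain ⟨hQ', e⟩ := op_a hq hK hu hus
      refine climb _ (mem _ mA ?_) hQ' ⟨1, by rw [e]; simpa using h⟩
      exact hL ([2, 1], 51, 65, 1, 56) (by simp) _ mA ⟨1, Or.inr rfl⟩
    · obtain ⟨hQ', e⟩ := op_b hq hK hu hus
      refine climb _ (mem _ mB ?_) hQ' ⟨2, by rw [e]; simpa using h⟩
      exact hL ([1], 47, 69, 1, 42) (by simp) _ mB ⟨1, Or.inr rfl⟩
    · obtain ⟨hQ', e⟩ := op_c hq hK hu
      refine climb _ (mem _ mC ?_) hQ' ⟨3, by rw [e]; simpa using h⟩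
      exact hL ([], 46, 70, -1, 39) (by simp) _ mC ⟨1, Or.inl rfl⟩
    · obtain ⟨hQ', e⟩ := op_b hq hK hu hus
      refine climb _ (mem _ mB ?_) hQ' ⟨4, by rw [e]; simpa using h⟩
      exact hL ([1], 47, 69, 1, 42) (by simp) _ mB ⟨1, Or.inr rfl⟩
    · obtain ⟨hQ', e⟩ := op_a hq hK hu hus
      refine climb _ (mem _ mA ?_) hQ' ⟨5, by rw [e]; simpa using h⟩
      exact hL ([2, 1], 51, 65, 1, 56) (by simp) _ mA ⟨1, Or.inr rfl⟩
  obtain ⟨u, hu, c, hc, hcq, hus, hy, i, hi⟩ := exists_cell hq hK hle hH hne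
  by_cases hlow : dev (q := q) u 48 ≠ 0 ∨ dev (q := q) u 49 ≠ 0 ∨ dev (q := q) u 52 ≠ 0 ∨
      dev (q := q) u 54 ≠ 0 ∨ dev (q := q) u 55 ≠ 0
  · exact first u hu c hc hcq hus hy hlow
  push Not at hlow
  obtain ⟨h48, h49, h52, h54, h55⟩ := hlow
  have h66 : dev (q := q) u 66 ≠ 0 := dev_top (dev_low h48 h49 h52 h54 h55) ⟨i, hi⟩
  obtain ⟨-, ⟨hstab, hw66, hw0, hinj⟩, -⟩ := levTab
  set m := (glSys (rulesE6 K)).nW (wd [3]) with hm
  have hmM : m ∈ Mq hq hK := nW_mem hq hK ([3].map oJ)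
  obtain ⟨a, ha0, ha⟩ := (glSys (rulesE6 K)).conjP_nW (rulesE6 K) hR6 (wd [3])
  obtain ⟨a66, a66q⟩ := coef_pow hq hK hmM ha0 ha (r := 66) (by omega)
  obtain ⟨a00, a00q⟩ := coef_pow hq hK hmM ha0 ha (r := 0) (by omega)
  obtain ⟨hQ', e55⟩ := cf_mon ha hstab (z := 66) (by decide) (by rw [hw66]; decide) hinj hu
  rw [hw66] at e55
  refine first (m * u * m⁻¹) hQ' (a 0 * c) (mul_ne_zero a00 hc) (by rw [mul_pow, a00q, hcq]) ?_ ?_
    (Or.inr (Or.inr (Or.inr (Or.inr ?_))))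
  · rw [sig_conj (Tw_le_Gbar hq hK hmM.1) (QS_le_Gbar hu) (Tw_fixed hq hK hmM.1), hus]
  · have e : m * X 0 c * m⁻¹ = X 0 (a 0 * c) := by
      have := ha 0 (by rw [nroots6]; omega) c; rw [hw0] at this; exact this
    rw [← e]
    have := mul_mem (mul_mem (hle hmM) hy) (inv_mem (hle hmM))
    simpa [mul_assoc] using this
  · have : dev (q := q) (m * u * m⁻¹) 55 = a 66 * dev (q := q) u 66 := by
      simp only [dev, hm, e55, mul_pow, a66q, mul_sub]
    rw [this]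
    exact mul_ne_zero a66 h66

include hq hK in
theorem exists_irrational : ∃ t : K, t ^ q ≠ t := by
  by_contra h
  push Not at h
  have h1 := card_fixed (K := K) hq.one_lt hK
  rw [Nat.card_congr (Equiv.subtypeUnivEquiv h), Nat.card_eq_fintype_card, hK] at h1
  exact absurd h1 (by nlinarith [hq.one_lt])

/-- An overgroup properly containing the subgroup is the whole twisted group. -/
theorem eq_twisted {H : Subgroup (GL chevE6.Idx K)} (hle : Mq hq hK ≤ H) (hH : H ≤ twistedE6 K q)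
    (hne : ¬ H ≤ Mq hq hK) : H = twistedE6 K q := by
  set S := glSys (rulesE6 K) with hS
  obtain ⟨-, -, h66, h29, h56, h15, r42, r56, r29, r15, s2, hcart, s39⟩ := levTab
  obtain ⟨t0, ht0, hG0⟩ := exists_top hq hK hle hH hne
  have move : ∀ (l : List ℕ) (r : ℕ), r < 72 → ∃ a : K, a ≠ 0 ∧ a ^ q = a ∧ ∀ t : K,
      Gp (q := q) r t ∈ H ↔ Gp (q := q) (act chevE6 (wd l) r) (a * t) ∈ H := by
    intro l r hr
    have hnM := nW_mem hq hK (l.map oJ)
    obtain ⟨a, ha0, ha⟩ := S.conjP_nW (rulesE6 K) hR6 (wd l)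
    obtain ⟨h1, h2⟩ := coef_pow hq hK hnM ha0 ha hr
    refine ⟨a r, h1, h2, fun t => ?_⟩
    rw [← conj_Gp hq hK (Subgroup.mem_inf.1 hnM).1 ha hr t]
    exact ⟨fun h => mul_mem (mul_mem (hle hnM) h) (inv_mem (hle hnM)),
      fun h => by simpa [mul_assoc] using mul_mem (mul_mem (inv_mem (hle hnM)) h) (hle hnM)⟩
  obtain ⟨a, ha, haq, hmv⟩ := move [3, 1, 2, 0, 1, 2, 3, 2] 66 (by omega)
  set t1 := a * t0 with ht1def
  have ht1 : Gp (q := q) 42 t1 ∈ H := by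
    have := (hmv t0).1 hG0; rwa [h66] at this
  have ht1q : t1 ^ q ≠ t1 := by
    intro h
    apply ht0
    rw [ht1def, mul_pow, haq] at h
    exact mul_left_cancel₀ ha h
  have h42' : twE6.root 42 ≠ 42 := by rw [r42]; omega
  have hscale : ∀ l : K, l ^ q = l → ∀ t : K, Gp (q := q) 42 t ∈ H → Gp (q := q) 42 (l * t) ∈ H := by
    intro l hl t ht
    by_cases h0 : l = 0
    · subst h0
      have : Gp (q := q) 42 ((0 : K) * t) = 1 := by
        simp [Gp, zero_pow hq.ne_zero, X, nroots6, r42,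
          (glSys (rulesE6 K)).x_zero]
      rw [this]
      exact one_mem _
    have hlinv : l⁻¹ ^ q = l⁻¹ := by rw [inv_pow, hl]
    have hM := hEl39_mem hq hK hlinv
    have hconj : ∀ s < chevE6.nroots, ∀ u : K, S.hEl 39 l⁻¹ * X s u * (S.hEl 39 l⁻¹)⁻¹ =
        X (act chevE6 [] s) ((l⁻¹) ^ chevE6.cartan 3 s * u) := by
      intro s hs u
      have := S.conjP_hI (rulesE6 K) hR6 (⟨3, by decide⟩ : Fin chevE6.rank) (inv_ne_zero h0) s hs u
      rw [show chevE6.simple (⟨3, by decide⟩ : Fin chevE6.rank).val = 39 from s39] at this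
      exact this
    have e := conj_Gp hq hK (Subgroup.mem_inf.1 hM).1 hconj (r := 42) (by omega) t
    rw [hcart, zpow_neg, zpow_one, inv_inv, act_nil] at e
    rw [← e]
    exact mul_mem (mul_mem (hle hM) ht) (inv_mem (hle hM))
  have hone : Gp (q := q) 42 (1 : K) ∈ H := hle (simple_pair_mem_Mq hq hK (by simp) (one_pow q))
  have hall42 : ∀ z : K, Gp (q := q) 42 z ∈ H := by
    intro z
    have hd : t1 ^ q - t1 ≠ 0 := sub_ne_zero.2 ht1q
    set b := (z ^ q - z) / (t1 ^ q - t1) with hb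
    have hbq : b ^ q = b := by
      rw [hb, ← frobE6_apply hq hK, map_div₀, map_sub, map_sub, frobE6_apply, frobE6_apply, frobE6_apply,
        frobE6_apply, pow_pow_q hK, pow_pow_q hK, ← neg_sub (z ^ q) z, ← neg_sub (t1 ^ q) t1, neg_div_neg_eq]
    have haq' : (z - b * t1) ^ q = z - b * t1 := by
      have e : b * (t1 ^ q - t1) = z ^ q - z := div_mul_cancel₀ _ hd
      rw [← frobE6_apply hq hK, map_sub, map_mul, frobE6_apply, frobE6_apply, frobE6_apply, hbq]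
      linear_combination -e
    have := mul_mem (hscale (z - b * t1) haq' 1 hone) (hscale b hbq t1 ht1)
    have e : Gp (q := q) 42 ((z - b * t1) * 1) * Gp (q := q) 42 (b * t1) = Gp (q := q) 42 z := by
      have hlt : (37 : ℕ) < chevE6.nroots := by rw [nroots6]; omega
      have hlt' : (42 : ℕ) < chevE6.nroots := by rw [nroots6]; omega
      simp only [Gp, r42, mul_one]
      have hc : Commute (X 37 ((symE6.sgn 42 : K) * (z - b * t1) ^ q)) (X 42 (b * t1)) := by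
        have := X_commute (K := K) (r := 42) (by omega) h42' (b * t1) ((symE6.sgn 42 : K) * (z - b * t1) ^ q)
        rw [r42] at this
        exact this.symm
      rw [mul_assoc, ← mul_assoc (X 37 _), hc.eq, mul_assoc, ← mul_assoc (X 42 _) (X 42 _)]
      rw [S.x_add 42 hlt', S.x_add 37 hlt, sub_add_cancel, ← mul_add]
      congr 3
      rw [← frobE6_apply hq hK, ← frobE6_apply hq hK (b * t1), ← map_add, sub_add_cancel, frobE6_apply]
    rwa [e] at this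
  have hpairs : ∀ r ∈ [42, 56, 29, 15], ∀ t : K, Gp (q := q) r t ∈ H := by
    intro r hr t
    obtain ⟨l, hl⟩ : ∃ l, act chevE6 (wd l) 42 = r := by
      simp only [List.mem_cons, List.not_mem_nil, or_false] at hr
      rcases hr with rfl | rfl | rfl | rfl
      · exact ⟨[], rfl⟩
      · exact ⟨[2, 3], h56⟩
      · exact ⟨[2], h29⟩
      · exact ⟨[2, 3, 2], h15⟩
    obtain ⟨b, hb, -, hmv'⟩ := move l 42 (by omega)
    have := (hmv' (t / b)).1 (hall42 _)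
    rwa [hl, mul_div_cancel₀ _ hb] at this
  refine le_antisymm hH ?_
  rw [genE6 hq hK, Subgroup.closure_le]
  rintro g ⟨J, hg⟩
  obtain ⟨neg, hg⟩ : ∃ neg, g ∈ fixUS (twistE6 hq hK)
      (bif neg then (orbE6 hq hK).negJ J else (orbE6 hq hK).posJ J) :=
    hg.elim (fun h => ⟨false, h⟩) (fun h => ⟨true, h⟩)
  obtain ⟨t, ht', rfl⟩ := (fixE6 hq hK J neg g).1 hg
  have hs : ∀ r ∈ [42, 56, 29, 15], symE6.sgn r = 1 := fun r hr => (pair_simple r hr).1
  fin_cases J <;> cases neg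
  · simpa [X, glSys] using hle (simple_mem_Mq hq hK (r := 46) (by simp) (ht' (by decide)))
  · simpa [X, glSys] using hle (simple_mem_Mq hq hK (r := 25) (by simp) (ht' (by decide)))
  · simpa [X, glSys] using hle (simple_mem_Mq hq hK (r := 39) (by simp) (ht' (by decide)))
  · simpa [X, glSys] using hle (simple_mem_Mq hq hK (r := 32) (by simp) (ht' (by decide)))
  · simpa [Gp, X, glSys, r42, hs 42 (by simp)] using hpairs 42 (by simp) t
  · simpa [Gp, X, glSys, r29, hs 29 (by simp)] using hpairs 29 (by simp) t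
  · simpa [Gp, X, glSys, r56, hs 56 (by simp)] using hpairs 56 (by simp) t
  · simpa [Gp, X, glSys, r15, hs 15 (by simp)] using hpairs 15 (by simp) t

/-- The subgroup over the small field is proper. -/
theorem ne_twisted : Mq hq hK ≠ twistedE6 K q := by
  intro h
  obtain ⟨t, ht⟩ := exists_irrational hq hK
  have h1 : Gp (q := q) 42 t ∈ Mq hq hK := h ▸ simple_pair_mem_Tw hq hK (by simp) t
  have e := congrArg (sx (⟨2, by decide⟩ : Fin chevE6.rank)) ((mem_Mq hq hK).1 h1).2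
  rw [phi_Gp hq hK (by omega)] at e
  obtain ⟨-, -, -, -, -, -, r42, -, -, -, s2, -⟩ := levTab
  have key : ∀ u : K, sx (⟨2, by decide⟩ : Fin chevE6.rank) (Gp (q := q) 42 u) = u := fun u => by
    have p42 : chevE6.IsPosRoot 42 := by decide +kernel
    have p37 : chevE6.IsPosRoot (twE6.root 42) := by rw [r42]; decide +kernel
    rw [Gp, sx_mul _ ((glSys (rulesE6 K)).x_mem_US (T := posSet chevE6) p42 _)
      ((glSys (rulesE6 K)).x_mem_US (T := posSet chevE6) p37 _), sx_X _ p42, sx_X _ p37, if_pos s2.symm,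
      if_neg, add_zero]
    rw [r42, show chevE6.simple ((⟨2, by decide⟩ : Fin chevE6.rank) : ℕ) = 42 from s2]
    omega
  rw [key, key] at e
  exact ht e

end

end Cfsg.Agent.TwF4Max
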