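import Cfsg.Agent.ChevTw.TwE6
import Cfsg.Agent.ChevTw.TwTorus

/-!
The subgroup of ²E₆(q) of the matrices over the field with q elements: membership of root elements and of
monomial representatives (owner: helper78).
-/

set_option autoImplicit false
set_option linter.unusedSectionVars false

namespace Cfsg.Agent.TwF4Max

open Cfsg.Lie Cfsg.Agent.ChevGrp Cfsg.Agent.ChevTw

/-- The lengths of the roots of E6. -/
def lenE6 : ℕ → ℕ := Cfsg.Agent.Chev.lenCertE6.len

theorem hR6 : RootTable chevE6 lenE6 := Cfsg.Agent.Chev.validE6.rootTable Cfsg.Agent.Chev.lenValidE6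

theorem lenE6_one : ∀ r < 72, lenE6 r = 1 := by decide +kernel

/-- Facts on the permutation and the signs. -/
theorem rhoTab : (∀ r < 72, twE6.root r < 72 ∧ twE6.root (twE6.root r) = r ∧
      symE6.sgn (twE6.root r) = symE6.sgn r ∧ (twE6.root r = r → symE6.sgn r = 1) ∧
      (symE6.sgn r = 1 ∨ symE6.sgn r = -1)) ∧
    ∀ r < 72, twE6.root r ≠ r → twE6.root r ≠ chevE6.neg r ∧ chevE6.commTerms r (twE6.root r) = [] := by
  decide +kernel

theorem nroots6 : chevE6.nroots = 72 := by decide +kernel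

/-- Words in the orbit representatives. -/
def oWord (ks : List (Fin twE6.nOrb)) : List (Fin chevE6.rank) := ks.flatMap (twE6.wJ chevE6)

variable {K : Type*} [Field K]

/-- The root elements of E6. -/
noncomputable abbrev X (r : ℕ) (t : K) : GL chevE6.Idx K := (glSys (rulesE6 K)).x r t

/-- Root elements determine their parameters. -/
theorem X_inj {r : ℕ} (hr : r < 72) {t u : K} (h : X r t = X r u) : t = u := by
  by_contra hne
  have hs : (r + 1) % 72 < chevE6.nroots := nroots6.symm ▸ Nat.mod_lt _ (show 0 < 72 by omega)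
  have h1 : (glSys (rulesE6 K)).x r (t - u) = (glSys (rulesE6 K)).x ((r + 1) % 72) 0 := by
    rw [(glSys (rulesE6 K)).x_zero hs, sub_eq_add_neg,
      ← (glSys (rulesE6 K)).x_add r (nroots6 ▸ hr), show (glSys (rulesE6 K)).x r t = (glSys (rulesE6 K)).x r u from h,
      (glSys (rulesE6 K)).x_add r (nroots6 ▸ hr), add_neg_cancel, (glSys (rulesE6 K)).x_zero (nroots6 ▸ hr)]
  have := (glSys (rulesE6 K)).x_root_inj hR6 (nroots6 ▸ hr) hs
    (sub_ne_zero.2 hne) h1
  omega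

section

variable [Fintype K] {q : ℕ} (hq : IsPrimePow q) (hK : Fintype.card K = q ^ 2)

/-- The entrywise field automorphism. -/
noncomputable def phi : GL chevE6.Idx K →* GL chevE6.Idx K :=
  Matrix.GeneralLinearGroup.map (n := chevE6.Idx) (frobE6 hq hK)

/-- The subgroup of the elements with entries in the small field. -/
noncomputable def Mq : Subgroup (GL chevE6.Idx K) :=
  twistedE6 K q ⊓ (phi hq hK).eqLocus (MonoidHom.id _)

theorem mem_Mq {g : GL chevE6.Idx K} : g ∈ Mq hq hK ↔ g ∈ twistedE6 K q ∧ phi hq hK g = g := Iff.rfl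

theorem phi_apply (g : GL chevE6.Idx K) (i j : chevE6.Idx) :
    (phi hq hK g : Matrix chevE6.Idx chevE6.Idx K) i j = ((g : Matrix chevE6.Idx chevE6.Idx K) i j) ^ q :=
  frobE6_apply hq hK _

theorem phi_eq_iff (g : GL chevE6.Idx K) : phi hq hK g = g ↔
    ∀ i j, ((g : Matrix chevE6.Idx chevE6.Idx K) i j) ^ q = (g : Matrix chevE6.Idx chevE6.Idx K) i j := by
  constructor
  · intro h i j
    rw [← phi_apply hq hK, h]
  · exact fun h => Units.ext (Matrix.ext fun i j => (phi_apply hq hK g i j).trans (h i j))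

theorem phi_X (r : ℕ) (t : K) : phi hq hK (X r t) = X r (t ^ q) := by
  refine Units.ext ?_
  show ((X r t : GL chevE6.Idx K) : Matrix chevE6.Idx chevE6.Idx K).map (frobE6 hq hK) = _
  rw [← frobE6_apply hq hK]
  show ((xGL chevE6 K r t : GL chevE6.Idx K) : Matrix chevE6.Idx chevE6.Idx K).map _ =
    ((xGL chevE6 K r _ : GL chevE6.Idx K) : Matrix chevE6.Idx chevE6.Idx K)
  rw [val_xGL (rulesE6 K), val_xGL (rulesE6 K), x_map]

/-- The defining map of ²E₆ on root elements. -/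
theorem sig_X {r : ℕ} (hr : r < 72) (t : K) :
    (twistE6 hq hK).sig (X r t) = X (twE6.root r) ((symE6.sgn r : K) * t ^ q) := by
  rw [← frobE6_apply hq hK]
  exact (twistE6 hq hK).sig_x r (nroots6 ▸ hr) t

theorem sig_X_fix {r : ℕ} (hr : r < 72) (h : twE6.root r = r) (t : K) :
    (twistE6 hq hK).sig (X r t) = X r (t ^ q) := by
  rw [sig_X hq hK hr, h, (rhoTab.1 r hr).2.2.2.1 h, Int.cast_one, one_mul]

theorem sgn_mul_self (r : ℕ) : (symE6.sgn r : K) * (symE6.sgn r : K) = 1 := by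
  rw [← Int.cast_mul, symE6.sgn_mul_self, Int.cast_one]

include hq hK in
theorem sgn_pow {r : ℕ} (_hr : r < 72) : (symE6.sgn r : K) ^ q = symE6.sgn r := by
  rw [← frobE6_apply hq hK, map_intCast]

theorem X_commute {r : ℕ} (hr : r < 72) (h : twE6.root r ≠ r) (t u : K) :
    Commute (X r t) (X (twE6.root r) u) :=
  x_commute (glSys (rulesE6 K)) (nroots6 ▸ hr) (nroots6 ▸ (rhoTab.1 r hr).1) h (rhoTab.2 r hr h).1
    (rhoTab.2 r hr h).2 t u

/-- The folded root element of a pair. -/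
noncomputable def Gp (r : ℕ) (t : K) : GL chevE6.Idx K :=
  X r t * X (twE6.root r) ((symE6.sgn r : K) * t ^ q)

include hq hK in
theorem Gp_eq {r : ℕ} (hr : r < 72) (t : K) :
    Gp (q := q) r t = X r t * (twistE6 hq hK).sig (X r t) := by
  rw [sig_X hq hK hr]; rfl

include hq hK in
theorem sig_Gp {r : ℕ} (hr : r < 72) (h : twE6.root r ≠ r) (t : K) :
    (twistE6 hq hK).sig (Gp (q := q) r t) = Gp (q := q) r t := by
  obtain ⟨hlt, hinv, hs, -, -⟩ := rhoTab.1 r hr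
  rw [Gp, (twistE6 hq hK).sig_mul _ ((glSys (rulesE6 K)).x_mem_Gbar (nroots6 ▸ hr) _) _
    ((glSys (rulesE6 K)).x_mem_Gbar (nroots6 ▸ hlt) _), sig_X hq hK hr, sig_X hq hK hlt, hinv, hs, mul_pow,
    sgn_pow hq hK hr, pow_pow_q hK, ← mul_assoc, sgn_mul_self, one_mul]
  exact (X_commute hr h t _).eq.symm

include hq hK in
theorem phi_Gp {r : ℕ} (hr : r < 72) (t : K) : phi hq hK (Gp (q := q) r t) = Gp (q := q) r (t ^ q) := by
  rw [Gp, map_mul, phi_X, phi_X, mul_pow, sgn_pow hq hK hr]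
  rfl

include hq hK in
theorem Tw_le_Gbar : twistedE6 K q ≤ (glSys (rulesE6 K)).Gbar := (grpE6 hq hK).Tw_le

theorem Tw_fixed {g : GL chevE6.Idx K} (hg : g ∈ twistedE6 K q) : (twistE6 hq hK).sig g = g :=
  (grpE6 hq hK).fixed hg

include hq hK in
/-- The fixed elements of the positive unipotent group. -/
theorem Ubar_mem_Tw {u : GL chevE6.Idx K} (hu : u ∈ (glSys (rulesE6 K)).Ubar)
    (hs : (twistE6 hq hK).sig u = u) : u ∈ twistedE6 K q :=
  (Subgroup.mem_inf.1 (((grpE6 hq hK).fixUbar_eq (rulesE6 K) hR6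
    ((orbE6 hq hK).comm_word hR6 twE6.longSeq)
    ((twE6_ok.isLongest (T := twistE6 hq hK) (fun _ => rfl) rfl).invSet_eq hR6)).2 ⟨hu, hs⟩)).2

theorem Gp_mem_Ubar {r : ℕ} (hr : chevE6.IsPosRoot r) (hr' : chevE6.IsPosRoot (twE6.root r)) (t : K) :
    Gp (q := q) r t ∈ (glSys (rulesE6 K)).Ubar :=
  mul_mem ((glSys (rulesE6 K)).x_mem_US hr _) ((glSys (rulesE6 K)).x_mem_US hr' _)

/-- Positive fixed root elements lie in the subgroup. -/
theorem X_mem_Mq {r : ℕ} (hr : chevE6.IsPosRoot r) (h : twE6.root r = r) {t : K} (ht : t ^ q = t) :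
    X r t ∈ Mq hq hK := by
  refine ⟨Ubar_mem_Tw hq hK ((glSys (rulesE6 K)).x_mem_US hr _) ?_, ?_⟩
  · rw [sig_X_fix hq hK (nroots6 ▸ hr.1) h, ht]
  · show phi hq hK (X r t) = X r t
    rw [phi_X, ht]

include hq hK in
/-- Positive folded root elements lie in the twisted group. -/
theorem Gp_mem_Tw {r : ℕ} (hr : chevE6.IsPosRoot r) (h : twE6.root r ≠ r) (t : K) :
    Gp (q := q) r t ∈ twistedE6 K q :=
  Ubar_mem_Tw hq hK (Gp_mem_Ubar hr ((twistE6 hq hK).ρ_pos r hr) t) (sig_Gp hq hK (nroots6 ▸ hr.1) h t)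

/-- Positive folded root elements with rational parameter lie in the subgroup. -/
theorem Gp_mem_Mq {r : ℕ} (hr : chevE6.IsPosRoot r) (h : twE6.root r ≠ r) {t : K} (ht : t ^ q = t) :
    Gp (q := q) r t ∈ Mq hq hK := by
  refine ⟨Gp_mem_Tw hq hK hr h t, ?_⟩
  show phi hq hK (Gp (q := q) r t) = Gp (q := q) r t
  rw [phi_Gp hq hK (nroots6 ▸ hr.1), ht]

/-- The simple fixed root elements. -/
theorem simple_mem_Mq {r : ℕ} (hr : r ∈ [46, 39, 25, 32]) {t : K} (ht : t ^ q = t) : X r t ∈ Mq hq hK := by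
  refine ⟨?_, by show phi hq hK (X r t) = X r t; rw [phi_X, ht]⟩
  have key : ∀ (J : Fin twE6.nOrb) (neg : Bool) (g : GL chevE6.Idx K),
      g ∈ fixUS (twistE6 hq hK) (bif neg then (orbE6 hq hK).negJ J else (orbE6 hq hK).posJ J) →
        g ∈ twistedE6 K q := by
    intro J neg g hg
    cases neg
    · exact (grpE6 hq hK).fixPos_mem J hg
    · exact (grpE6 hq hK).fixNeg_mem J hg
  simp only [List.mem_cons, List.not_mem_nil, or_false] at hr
  rcases hr with rfl | rfl | rfl | rfl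
  · exact key ⟨0, by decide⟩ false _ ((fixE6 hq hK _ _ _).2 ⟨t, fun _ => ht, by simp [X, glSys]⟩)
  · exact key ⟨1, by decide⟩ false _ ((fixE6 hq hK _ _ _).2 ⟨t, fun _ => ht, by simp [X, glSys]⟩)
  · exact key ⟨0, by decide⟩ true _ ((fixE6 hq hK _ _ _).2 ⟨t, fun _ => ht, by simp [X, glSys]⟩)
  · exact key ⟨1, by decide⟩ true _ ((fixE6 hq hK _ _ _).2 ⟨t, fun _ => ht, by simp [X, glSys]⟩)

theorem pair_simple : ∀ r ∈ [42, 56, 29, 15],
    symE6.sgn r = 1 ∧ (r, twE6.root r) ∈ [(42, 37), (56, 36), (29, 34), (15, 35)] := by decide +kernel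

include hq hK in
/-- The simple folded root elements. -/
theorem simple_pair_mem_Tw {r : ℕ} (hr : r ∈ [42, 56, 29, 15]) (t : K) :
    Gp (q := q) r t ∈ twistedE6 K q := by
  have key : ∀ (J : Fin twE6.nOrb) (neg : Bool) (g : GL chevE6.Idx K),
      g ∈ fixUS (twistE6 hq hK) (bif neg then (orbE6 hq hK).negJ J else (orbE6 hq hK).posJ J) →
        g ∈ twistedE6 K q := by
    intro J neg g hg
    cases neg
    · exact (grpE6 hq hK).fixPos_mem J hg
    · exact (grpE6 hq hK).fixNeg_mem J hg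
  obtain ⟨hs, hp⟩ := pair_simple r hr
  simp only [Gp, hs, Int.cast_one, one_mul]
  simp only [List.mem_cons, List.not_mem_nil, or_false] at hr
  rcases hr with rfl | rfl | rfl | rfl <;> simp at hp <;> rw [hp]
  · exact key ⟨2, by decide⟩ false _ ((fixE6 hq hK _ _ _).2 ⟨t, fun h => absurd h (by decide), by simp [X, glSys]⟩)
  · exact key ⟨3, by decide⟩ false _ ((fixE6 hq hK _ _ _).2 ⟨t, fun h => absurd h (by decide), by simp [X, glSys]⟩)
  · exact key ⟨2, by decide⟩ true _ ((fixE6 hq hK _ _ _).2 ⟨t, fun h => absurd h (by decide), by simp [X, glSys]⟩)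
  · exact key ⟨3, by decide⟩ true _ ((fixE6 hq hK _ _ _).2 ⟨t, fun h => absurd h (by decide), by simp [X, glSys]⟩)

theorem simple_pair_mem_Mq {r : ℕ} (hr : r ∈ [42, 56, 29, 15]) {t : K} (ht : t ^ q = t) :
    Gp (q := q) r t ∈ Mq hq hK := by
  refine ⟨simple_pair_mem_Tw hq hK hr t, ?_⟩
  show phi hq hK (Gp (q := q) r t) = Gp (q := q) r t
  have : r < 72 := by
    simp only [List.mem_cons, List.not_mem_nil, or_false] at hr
    omega
  rw [phi_Gp hq hK this, ht]

include hq hK in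
theorem neg_one_pow : (-1 : K) ^ q = -1 := by
  rw [← frobE6_apply hq hK, map_neg, map_one]

theorem nEl_fix_mem {r : ℕ} (hr : r ∈ [46, 39]) {t : K} (ht : t ^ q = t) :
    (glSys (rulesE6 K)).nEl r t ∈ Mq hq hK := by
  have hn : chevE6.neg r ∈ [46, 39, 25, 32] ∧ r ∈ [46, 39, 25, 32] :=
    (by decide +kernel : ∀ r ∈ [46, 39], chevE6.neg r ∈ [46, 39, 25, 32] ∧ r ∈ [46, 39, 25, 32]) r hr
  refine mul_mem (mul_mem (simple_mem_Mq hq hK hn.2 ht) (simple_mem_Mq hq hK hn.1 ?_))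
    (simple_mem_Mq hq hK hn.2 ht)
  rw [← frobE6_apply hq hK, map_neg, map_inv₀, frobE6_apply, ht]

theorem nEl_pair_mem : ∀ ab ∈ [(42, 37, 29, 34), (56, 36, 15, 35)],
    (glSys (rulesE6 K)).nEl ab.1 (1 : K) * (glSys (rulesE6 K)).nEl ab.2.1 1 ∈ Mq hq hK := by
  have tab : ∀ ab ∈ [(42, 37, 29, 34), (56, 36, 15, 35)],
      chevE6.neg ab.1 = ab.2.2.1 ∧ chevE6.neg ab.2.1 = ab.2.2.2 ∧ twE6.root ab.1 = ab.2.1 ∧
        twE6.root ab.2.2.1 = ab.2.2.2 ∧ ab.1 ∈ [42, 56, 29, 15] ∧ ab.2.2.1 ∈ [42, 56, 29, 15] ∧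
        (ab.1, ab.2.1) ∈ [(42, 37), (56, 36), (29, 34), (15, 35), (42, 34), (56, 35), (29, 37), (15, 36)] ∧
        (ab.2.2.1, ab.2.1) ∈ [(42, 37), (56, 36), (29, 34), (15, 35), (42, 34), (56, 35), (29, 37), (15, 36)] ∧
        (ab.1, ab.2.2.2) ∈ [(42, 37), (56, 36), (29, 34), (15, 35), (42, 34), (56, 35), (29, 37), (15, 36)] := by
    decide +kernel
  rintro ⟨a, b, a', b'⟩ hab
  obtain ⟨hna, hnb, hra, hra', ha, ha', c1, c2, c3⟩ := tab _ hab
  simp only at hna hnb hra hra' ha ha' c1 c2 c3 ⊢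
  rw [nEl_pair (glSys (rulesE6 K)) (x_commuteE6 c1 _ _) (by rw [hna]; exact x_commuteE6 c2 _ _)
    (by rw [hnb]; exact x_commuteE6 c3 _ _), hna, hnb]
  have e1 : (glSys (rulesE6 K)).x a 1 * (glSys (rulesE6 K)).x b 1 = Gp (q := q) a 1 := by
    simp [Gp, hra, (pair_simple a ha).1]
  have e2 : (glSys (rulesE6 K)).x a' (-1⁻¹) * (glSys (rulesE6 K)).x b' (-1⁻¹) = Gp (q := q) a' (-1) := by
    simp [Gp, hra', (pair_simple a' ha').1, neg_one_pow hq hK]
  rw [e1, e2]
  exact mul_mem (mul_mem (simple_pair_mem_Mq hq hK ha (one_pow q))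
    (simple_pair_mem_Mq hq hK ha' (neg_one_pow hq hK))) (simple_pair_mem_Mq hq hK ha (one_pow q))

theorem simple_vals : chevE6.simple 1 = 46 ∧ chevE6.simple 3 = 39 ∧ chevE6.simple 2 = 42 ∧
    chevE6.simple 4 = 37 ∧ chevE6.simple 0 = 56 ∧ chevE6.simple 5 = 36 := by decide +kernel

/-- The representatives of the orbit words lie in the subgroup. -/
theorem nW_mem (ks : List (Fin twE6.nOrb)) : (glSys (rulesE6 K)).nW (oWord ks) ∈ Mq hq hK := by
  induction ks with
  | nil => simp [oWord, Sys.nW_nil, one_mem]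
  | cons J ks ih =>
    rw [oWord, List.flatMap_cons, Sys.nW_append]
    refine mul_mem ?_ ih
    obtain ⟨e1, e3, e2, e4, e0, e5⟩ := simple_vals
    fin_cases J
    · show (glSys (rulesE6 K)).nW [⟨1, by decide⟩] ∈ _
      rw [Sys.nW_singleton, Sys.nI]
      exact e1.symm ▸ nEl_fix_mem hq hK (by simp) (one_pow q)
    · show (glSys (rulesE6 K)).nW [⟨3, by decide⟩] ∈ _
      rw [Sys.nW_singleton, Sys.nI]
      exact e3.symm ▸ nEl_fix_mem hq hK (by simp) (one_pow q)
    · show (glSys (rulesE6 K)).nW [⟨2, by decide⟩, ⟨4, by decide⟩] ∈ _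
      rw [Sys.nW_cons, Sys.nW_singleton, Sys.nI, Sys.nI]
      exact e2.symm ▸ e4.symm ▸ nEl_pair_mem hq hK (42, 37, 29, 34) (by simp)
    · show (glSys (rulesE6 K)).nW [⟨0, by decide⟩, ⟨5, by decide⟩] ∈ _
      rw [Sys.nW_cons, Sys.nW_singleton, Sys.nI, Sys.nI]
      exact e0.symm ▸ e5.symm ▸ nEl_pair_mem hq hK (56, 36, 15, 35) (by simp)

theorem hEl39_mem {t : K} (ht : t ^ q = t) : (glSys (rulesE6 K)).hEl 39 t ∈ Mq hq hK :=
  mul_mem (nEl_fix_mem hq hK (by simp) ht) (nEl_fix_mem hq hK (by simp) (neg_one_pow hq hK))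

include hq hK in
/-- Conjugation by a monomial element of the twisted group moves folded elements to folded elements. -/
theorem conj_Gp {n : GL chevE6.Idx K} (hn : n ∈ twistedE6 K q) {w : List (Fin chevE6.rank)} {a : ℕ → K}
    (ha : ∀ s < chevE6.nroots, ∀ t : K, n * X s t * n⁻¹ = X (act chevE6 w s) (a s * t))
    {r : ℕ} (hr : r < 72) (t : K) :
    n * Gp (q := q) r t * n⁻¹ = Gp (q := q) (act chevE6 w r) (a r * t) := by
  have hlt : act chevE6 w r < 72 := nroots6 ▸ hR6.act_lt w (nroots6 ▸ hr)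
  rw [Gp_eq hq hK hr, Gp_eq hq hK hlt, ← ha r (nroots6 ▸ hr),
    sig_conj (Tw_le_Gbar hq hK hn) ((glSys (rulesE6 K)).x_mem_Gbar (nroots6 ▸ hr) _) (Tw_fixed hq hK hn)]
  simp [mul_assoc]

/-- The coefficients of a monomial element of the subgroup are rational. -/
theorem coef_pow {n : GL chevE6.Idx K} (hn : n ∈ Mq hq hK) {w : List (Fin chevE6.rank)} {a : ℕ → K}
    (ha0 : ∀ s < chevE6.nroots, a (chevE6.neg s) * a s = 1)
    (ha : ∀ s < chevE6.nroots, ∀ t : K, n * X s t * n⁻¹ = X (act chevE6 w s) (a s * t))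
    {r : ℕ} (hr : r < 72) : a r ≠ 0 ∧ (a r) ^ q = a r := by
  have h0 : a r ≠ 0 := right_ne_zero_of_mul_eq_one (ha0 r (nroots6 ▸ hr))
  refine ⟨h0, ?_⟩
  have e := congrArg (phi hq hK) (ha r (nroots6 ▸ hr) 1)
  rw [map_mul, map_mul, map_inv, (mem_Mq hq hK).1 hn |>.2, phi_X, one_pow, ha r (nroots6 ▸ hr) 1, mul_one,
    phi_X] at e
  exact X_inj (nroots6 ▸ hR6.act_lt w (nroots6 ▸ hr)) e.symm

end

end Cfsg.Agent.TwF4Max
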