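import Cfsg.Agent.TwF4Max.Coord
import Cfsg.Agent.ChevTw.TwBN

/-!
An element of E6(K) commuting with suitable positive elements and their conjugates under the longest word is
trivial (owner: helper78).
-/

set_option autoImplicit false
set_option linter.unusedSectionVars false

namespace Cfsg.Agent.TwF4Max

open Cfsg.Lie Cfsg.Agent.ChevGrp Cfsg.Agent.ChevTw Cfsg.Agent.Known.SubG

variable {K : Type*} [Field K]

/-- The entry reading the coefficient of a simple root. -/
noncomputable def sx (i : Fin chevE6.rank) (g : GL chevE6.Idx K) : K :=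
  g.val (Sum.inl i) (Sum.inr ⟨chevE6.neg (chevE6.simple i), hR6.neg_lt _ (hR6.simple_lt i i.2)⟩)

theorem sxTab : ∀ i : Fin chevE6.rank, (chevE6.coroot.getD (chevE6.simple i) #[]).getD i.val 0 = 1 := by
  decide +kernel

theorem deg_simple_neg (i : Fin chevE6.rank) :
    htHom chevE6 (vec chevE6 lenE6 (chevE6.neg (chevE6.simple i))) = -1 := by
  rw [hR6.deg_neg _ (hR6.simple_lt i i.2), hR6.vec_simple i]
  simp [htHom, lenE6_one _ (nroots6 ▸ hR6.simple_lt i i.2)]

theorem sx_mul (i : Fin chevE6.rank) {g h : GL chevE6.Idx K} (hg : g ∈ (glSys (rulesE6 K)).Ubar)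
    (hh : h ∈ (glSys (rulesE6 K)).Ubar) : sx i (g * h) = sx i g + sx i h := by
  have hd := deg_simple_neg i
  have := raise_mul_apply ((glSys (rulesE6 K)).raise_Ubar hR6 hg) ((glSys (rulesE6 K)).raise_Ubar hR6 hh)
    (a := Sum.inl i) (b := Sum.inr ⟨chevE6.neg (chevE6.simple i), hR6.neg_lt _ (hR6.simple_lt i i.2)⟩)
    (by simp only [degI, Sum.elim_inl, Sum.elim_inr, hd]; norm_num)
  rw [glSys_mat, glSys_mat, Matrix.one_apply_ne (by simp), sub_zero] at this
  rw [sx, Units.val_mul, this]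
  rfl

theorem sx_one (i : Fin chevE6.rank) : sx i (1 : GL chevE6.Idx K) = 0 := by
  simp [sx]

theorem sx_inv (i : Fin chevE6.rank) {g : GL chevE6.Idx K} (hg : g ∈ (glSys (rulesE6 K)).Ubar) :
    sx i g⁻¹ = -sx i g := by
  have := sx_mul i hg (inv_mem hg)
  rw [mul_inv_cancel, sx_one] at this
  exact eq_neg_of_add_eq_zero_right this.symm

theorem sx_X (i : Fin chevE6.rank) {r : ℕ} (hr : chevE6.IsPosRoot r) (t : K) :
    sx i (X r t) = if r = chevE6.simple i then t else 0 := by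
  have hlt := hr.1
  have hs := hR6.simple_lt i i.2
  show ((xGL chevE6 K r t : GL chevE6.Idx K) : Matrix chevE6.Idx chevE6.Idx K) _ _ = _
  rw [val_xGL (rulesE6 K), ChevalleyDatum.x, dif_pos hlt]
  have hne : chevE6.neg (chevE6.simple i) ≠ r := fun e =>
    hR6.not_pos_and_neg hr (e ▸ hR6.neg_simple_isNeg i)
  by_cases e : r = chevE6.simple i
  · subst e
    have hne' : chevE6.negIdx.getD (chevE6.simple i) 0 ≠ chevE6.simple i := hne
    simp [ChevalleyDatum.xMat, hne', Fin.ext_iff, -Array.getD_eq_getD_getElem?, ChevalleyDatum.neg, sxTab i]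
  · have hne2 : chevE6.neg (chevE6.simple i) ≠ chevE6.negIdx.getD r 0 := by
      intro e2
      apply e
      rw [← hR6.neg_neg_root hs, e2]
      exact (hR6.neg_neg_root hlt).symm
    simp [ChevalleyDatum.xMat, hne, e, Fin.ext_iff, -Array.getD_eq_getD_getElem?, hne2]

theorem mem_Bbar_of_comm {d : GL chevE6.Idx K} (hd : d ∈ (glSys (rulesE6 K)).Gbar)
    (H : ∀ i : Fin chevE6.rank, ∃ f ∈ (glSys (rulesE6 K)).Ubar, Commute d f ∧ sx i f ≠ 0) :
    d ∈ (glSys (rulesE6 K)).Bbar := by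
  obtain ⟨b, hb, w, -, v, hv, e⟩ := (glSys (rulesE6 K)).mem_NF (rulesE6 K) hR6 hd
  have hvU : v ∈ (glSys (rulesE6 K)).Ubar := (glSys (rulesE6 K)).US_mono (fun r h => h.1) hv
  have hpos : ∀ i : Fin chevE6.rank, chevE6.IsPosRoot (act chevE6 w (chevE6.simple i)) := by
    intro i
    have hs := hR6.simple_lt i i.2
    have hwl := hR6.act_lt w hs
    rcases hR6.sign _ hwl with h | hneg
    · exact h
    exfalso
    obtain ⟨f, hf, hc, hfne⟩ := H i
    set n := (glSys (rulesE6 K)).nW w with hn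
    set y := v * f * v⁻¹ with hy
    have hyU : y ∈ (glSys (rulesE6 K)).Ubar := mul_mem (mul_mem hvU hf) (inv_mem hvU)
    have hsy : sx i y = sx i f := by
      rw [hy, sx_mul i (mul_mem hvU hf) (inv_mem hvU), sx_mul i hvU hf, sx_inv i hvU]
      ring
    set B := b⁻¹ * f * b with hB
    have hBm : B ∈ (glSys (rulesE6 K)).Bbar :=
      mul_mem (mul_mem (inv_mem hb) ((glSys (rulesE6 K)).Ubar_le_Bbar hf)) hb
    have key : n * y = B * n := by
      rw [hy, hB]
      have h1 : b * n * v * f = f * (b * n * v) := by rw [← e]; exact hc.eq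
      calc n * (v * f * v⁻¹) = b⁻¹ * (b * n * v * f) * v⁻¹ := by group
        _ = b⁻¹ * (f * (b * n * v)) * v⁻¹ := by rw [h1]
        _ = _ := by group
    obtain ⟨a, la, -, -, hcol, hzero⟩ := mon_nW (rulesE6 K) hR6 w
    set s : Fin chevE6.nroots := ⟨chevE6.neg (chevE6.simple i), hR6.neg_lt _ hs⟩ with hsdef
    have hup : 0 < htHom chevE6 (vec chevE6 lenE6 (act chevE6 w s)) := by
      rw [show act chevE6 w (s : ℕ) = chevE6.neg (act chevE6 w (chevE6.simple i)) from hR6.act_neg w hs]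
      exact hR6.posSet_closed.pos _ ((hR6.pos_neg_iff hwl).2 hneg)
    set Z : chevE6.Idx → K := Sum.elim (fun j => y.val (Sum.inl j) (Sum.inr s)) (fun _ => 0) with hZ
    have hnZ : (n : Matrix chevE6.Idx chevE6.Idx K).mulVec Z = 0 := by
      funext c
      rcases c with j | r
      · have e1 := congrArg (fun g : GL chevE6.Idx K => g.val (Sum.inl j) (Sum.inr s)) key
        simp only [Units.val_mul, Matrix.mul_apply] at e1
        rw [Fintype.sum_sum_type, Fintype.sum_sum_type] at e1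
        have hB0 : B.val (Sum.inl j) (Sum.inr ⟨act chevE6 w s, la s⟩) = 0 := by
          by_contra h0
          rcases ((glSys (rulesE6 K)).mat_Bbar (rulesE6 K) hR6 hBm).1 _ _ h0 with h | h
          · exact absurd h (by simp)
          · simp only [degI, Sum.elim_inl, Sum.elim_inr] at h
            omega
        have hr : ∀ r : Fin chevE6.nroots, (n : Matrix chevE6.Idx chevE6.Idx K) (Sum.inl j) (Sum.inr r) = 0 :=
          fun r => by rw [hcol, if_neg (by simp)]
        simp only [Matrix.mulVec, dotProduct, Fintype.sum_sum_type, hZ, Sum.elim_inl, Sum.elim_inr, mul_zero,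
          Finset.sum_const_zero, add_zero, Pi.zero_apply]
        simp only [hr, zero_mul, Finset.sum_const_zero, add_zero] at e1
        refine e1.trans ?_
        rw [show (∑ x : Fin chevE6.rank, B.val (Sum.inl j) (Sum.inl x) * (n : Matrix chevE6.Idx chevE6.Idx K) (Sum.inl x) (Sum.inr s)) = 0 from
          Finset.sum_eq_zero fun x _ => by rw [hcol, if_neg (by simp), mul_zero], zero_add,
          Finset.sum_eq_single ⟨act chevE6 w s, la s⟩, hB0, zero_mul]
        · intro x _ hx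
          rw [hcol, if_neg (by simpa using hx), mul_zero]
        · simp
      · simp only [Matrix.mulVec, dotProduct, Fintype.sum_sum_type, hZ, Sum.elim_inl, Sum.elim_inr, mul_zero,
          Finset.sum_const_zero, add_zero, Pi.zero_apply]
        exact Finset.sum_eq_zero fun x _ => by rw [show (n : Matrix chevE6.Idx chevE6.Idx K) (Sum.inr r) (Sum.inl x) = 0 from hzero r x, zero_mul]
    have hZ0 : Z = 0 := by
      have := congrArg ((↑n⁻¹ : Matrix chevE6.Idx chevE6.Idx K).mulVec) hnZ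
      rwa [Matrix.mulVec_mulVec, Units.inv_mul, Matrix.one_mulVec, Matrix.mulVec_zero] at this
    have := congrFun hZ0 (Sum.inl i)
    simp only [hZ, Sum.elim_inl, Pi.zero_apply] at this
    exact hfne (hsy ▸ this)
  have hid := act_eq_self_of_pos (glSys (rulesE6 K)) (rulesE6 K) hR6 (w := w) fun r hr =>
    pos_of_support hR6 Set.univ w (fun i _ => hpos i) hr ⟨hr.1, fun i _ hi => absurd (Set.mem_univ i) hi⟩
  have hinv : invSet chevE6 w = ∅ := by
    rw [Set.eq_empty_iff_forall_notMem]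
    intro r hr
    exact hR6.not_pos_and_neg (by rw [hid r hr.1.1]; exact hr.1) hr.2
  have hH : (glSys (rulesE6 K)).nW w ∈ (glSys (rulesE6 K)).Hbar :=
    (glSys (rulesE6 K)).nW_mem_Hbar_of_act (rulesE6 K) hR6 fun r hr => by rw [hid r hr.1]; exact hr
  have hv1 : v = 1 := by
    rw [hinv] at hv
    simpa [Sys.US] using hv
  rw [e, hv1, mul_one]
  exact mul_mem hb ((glSys (rulesE6 K)).Hbar_le_Bbar hH)

theorem eq_one_of_comm {d : GL chevE6.Idx K} (hd : d ∈ (glSys (rulesE6 K)).Gbar) {w : List (Fin chevE6.rank)}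
    (hw : invSet chevE6 w = posSet chevE6)
    (H : ∀ i : Fin chevE6.rank, ∃ f ∈ (glSys (rulesE6 K)).Ubar, Commute d f ∧
      Commute ((glSys (rulesE6 K)).nW w * d * ((glSys (rulesE6 K)).nW w)⁻¹) f ∧ sx i f ≠ 0) : d = 1 := by
  set S := glSys (rulesE6 K) with hS
  set n := S.nW w with hn
  have hB : d ∈ S.Bbar := mem_Bbar_of_comm hd fun i => by
    obtain ⟨f, hf, h1, -, h3⟩ := H i
    exact ⟨f, hf, h1, h3⟩
  have hB' : n * d * n⁻¹ ∈ S.Bbar := by
    have hnG : n ∈ S.Gbar := S.Nbar_le_Gbar (rulesE6 K) hR6 (S.nW_mem_Nbar w)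
    refine mem_Bbar_of_comm (mul_mem (mul_mem hnG hd) (inv_mem hnG)) fun i => ?_
    obtain ⟨f, hf, -, h2, h3⟩ := H i
    exact ⟨f, hf, h2, h3⟩
  obtain ⟨u, hu, h, hh, rfl⟩ := (S.mem_Bbar (rulesE6 K) hR6).1 hB
  have hu' : n * u * n⁻¹ ∈ S.Vbar ⊓ S.Bbar := by
    refine Subgroup.mem_inf.2 ⟨S.nW_conj_neg (rulesE6 K) hR6 w (by rw [hw]; exact hu), ?_⟩
    have h1 := S.Hbar_le_Bbar (S.nW_conj_Hbar (rulesE6 K) hR6 w hh)
    have := mul_mem hB' (inv_mem h1)
    have e : n * (u * h) * n⁻¹ * (n * h * n⁻¹)⁻¹ = n * u * n⁻¹ := by group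
    rwa [e] at this
  rw [S.Vbar_inf_Bbar (rulesE6 K) hR6, Subgroup.mem_bot] at hu'
  obtain rfl : u = 1 := by
    have := congrArg (fun g => n⁻¹ * g * n) hu'
    simpa [mul_assoc] using this
  rw [one_mul] at H ⊢
  obtain ⟨a, la, ha0, hconj, hcol, -⟩ := mon_Hbar (rulesE6 K) hR6 hh
  have ha : ∀ s < chevE6.nroots, ∀ t : K, h * X s t * h⁻¹ = X s (a s * t) := hconj
  have hsx : ∀ (i : Fin chevE6.rank), ∀ f ∈ S.Ubar, sx i (h * f * h⁻¹) = a (chevE6.simple i) * sx i f := by
    intro i f hf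
    have hm : ∀ g ∈ S.Ubar, h * g * h⁻¹ ∈ S.Ubar := fun g hg =>
      (Subgroup.mem_normalizer_iff.1 (S.Hbar_le_normalizer_Ubar (rulesE6 K) hR6 hh) g).1 hg
    refine Subgroup.closure_induction
      (p := fun g _ => sx i (h * g * h⁻¹) = a (chevE6.simple i) * sx i g) ?_ ?_ ?_ ?_ hf
    · rintro _ ⟨r, hr, t, rfl⟩
      show sx i (h * X r t * h⁻¹) = a (chevE6.simple i) * sx i (X r t)
      rw [ha r hr.1, sx_X i hr, sx_X i hr]
      split_ifs with e
      · rw [e]
      · rw [mul_zero]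
    · simp [sx_one]
    · intro p q hp hq h1 h2
      have e : h * (p * q) * h⁻¹ = h * p * h⁻¹ * (h * q * h⁻¹) := by simp [mul_assoc]
      rw [e, sx_mul i (hm p hp) (hm q hq), sx_mul i hp hq, h1, h2, mul_add]
    · intro p hp h1
      have e : h * p⁻¹ * h⁻¹ = (h * p * h⁻¹)⁻¹ := by simp [mul_assoc]
      rw [e, sx_inv i (hm p hp), sx_inv i hp, h1, mul_neg]
  have hfix := hbar_fix_of_simple (S := S) (rulesE6 K) hR6 hh fun i => by
    obtain ⟨f, hf, h1, -, h3⟩ := H i
    have h4 := hsx i f hf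
    rw [h1.eq, mul_inv_cancel_right] at h4
    have : a (chevE6.simple i) = 1 := mul_right_cancel₀ h3 (h4.symm.trans (one_mul _).symm)
    rw [show S.x (chevE6.simple i) 1 = X (chevE6.simple i) (1 : K) from rfl,
      ha _ (hR6.simple_lt i i.2), this, one_mul]
  have ha1 : ∀ s < chevE6.nroots, a s = 1 := fun s hs => by
    have := hfix s hs
    rw [show S.x s 1 = X s (1 : K) from rfl, ha s hs, mul_one] at this
    exact X_inj (nroots6 ▸ hs) this
  obtain ⟨d', -, e⟩ := S.mat_Hbar (rulesE6 K) hR6 hh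
  rw [hS, glSys_mat] at e
  refine Units.ext ?_
  rw [Units.val_one, e, ← Matrix.diagonal_one]
  congr 1
  funext c
  rcases c with c | c
  · rfl
  · have h5 := hcol (Sum.inr c) c
    rw [e, Matrix.diagonal_apply_eq, if_pos (by simp [act_nil]), ha1 c c.2] at h5
    exact h5

end Cfsg.Agent.TwF4Max
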