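import Cfsg.Agent.TwF4Max.Basic
import Cfsg.Agent.Known.SubG.Data

/-!
Coordinates on the unipotent radical of the maximal parabolic of the adjoint node of E6 (owner: helper78).
-/

set_option autoImplicit false
set_option linter.unusedSectionVars false

namespace Cfsg.Agent.TwF4Max

open Cfsg.Lie Cfsg.Agent.ChevGrp Cfsg.Agent.ChevTw Cfsg.Agent.Known.SubG

/-- The roots of the radical: fixed ones, pairs, the highest. -/
def qList : List ℕ := [46, 47, 51, 53, 63, 65, 69, 70, 48, 50, 49, 61, 52, 62, 54, 64, 55, 67, 66, 68, 71]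

/-- The other positive roots. -/
def lList : List ℕ := [36, 37, 38, 39, 40, 41, 42, 43, 44, 45, 56, 57, 58, 59, 60]

/-- The roots of degree one. -/
def d1List : List ℕ := [46, 47, 51, 53, 63, 65, 69, 70, 48, 50, 49, 61, 52, 62, 54, 64, 55, 67, 66, 68]

/-- The sum of the constants of the commutator terms ending in `z`. -/
def commSum (s r z : ℕ) : ℤ := (((chevE6.commTerms s r).filter fun c => c.1 = z).map fun c => c.2.1).sum

/-- The chain constant of a root at the lowest root. -/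
def nC (r : ℕ) : ℤ := ((chevE6.chainCoeff r 0 (r - 45)).map fun c => c.2).sum

theorem qTab : (qList.Nodup ∧ (∀ r ∈ qList, r < 72 ∧ chevE6.IsPosRoot r ∧ twE6.root r ∈ qList)) ∧
    (∀ r ∈ qList, ∀ s ∈ qList, ∀ c ∈ chevE6.commTerms r s, c.1 = 71) ∧
    (∀ r ∈ d1List, r ∈ qList ∧ nC r * nC r = 1 ∧ twE6.root r ∈ d1List) ∧
    (∀ r ∈ qList, r ∈ d1List ∨ r = 71) := by decide +kernel

theorem qRow : ∀ z ∈ d1List, ∀ r ∈ qList,
    (∀ u : Fin chevE6.nroots, (u : ℕ) ≠ 0 → chevE6.chainCoeff r u (z - 45) = []) ∧ z - 45 < 72 ∧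
      z - 45 ≠ r ∧ z - 45 ≠ 0 ∧
      (r = 71 → chevE6.chainCoeff r 0 (z - 45) = []) ∧
      (r ≠ 71 → r ≠ 0 ∧ chevE6.neg r ≠ 0 ∧ (r ≠ z → chevE6.chainCoeff r 0 (z - 45) = []) ∧
        (r = z → chevE6.chainCoeff r 0 (z - 45) = [(1, nC z)])) := by
  decide +kernel

variable {K : Type*} [Field K]

/-- An index of a root. -/
def ix (v : ℕ) : chevE6.Idx := Sum.inr ⟨v % 72, by rw [nroots6]; omega⟩

/-- The radical. -/
noncomputable def QS : Subgroup (GL chevE6.Idx K) := (glSys (rulesE6 K)).US {r | r ∈ qList}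

theorem QS_le_Ubar : QS (K := K) ≤ (glSys (rulesE6 K)).Ubar :=
  (glSys (rulesE6 K)).US_mono fun r hr => (qTab.1.2 r hr).2.1

theorem X_mem_QS {r : ℕ} (hr : r ∈ qList) (t : K) : X r t ∈ QS (K := K) :=
  (glSys (rulesE6 K)).x_mem_US (T := {r | r ∈ qList}) hr t

/-- The coordinate of a root of degree one. -/
noncomputable def cf (z : ℕ) (g : GL chevE6.Idx K) : K :=
  (nC z : K) * (g : Matrix chevE6.Idx chevE6.Idx K) (ix (z - 45)) (ix 0)

theorem row_shape_gen {z r : ℕ} (hz : z ∈ d1List) (hr : r ∈ qList) (t : K) (c : chevE6.Idx) :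
    (X r t : GL chevE6.Idx K).val (ix (z - 45)) c =
      (1 : Matrix chevE6.Idx chevE6.Idx K) (ix (z - 45)) c +
        if c = ix 0 then (if r = z then (nC z : K) * t else 0) else 0 := by
  obtain ⟨h1, h2, h3, h0, h71, hne⟩ := qRow z hz r hr
  have hr' : r < chevE6.nroots := nroots6 ▸ (qTab.1.2 r hr).1
  show ((xGL chevE6 K r t : GL chevE6.Idx K) : Matrix chevE6.Idx chevE6.Idx K) _ c = _
  rw [val_xGL (rulesE6 K)]
  have hv : (z - 45) % 72 = z - 45 := Nat.mod_eq_of_lt h2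
  by_cases e : r = 71
  · rw [ix, x_row hr' t _ (by simpa [hv] using h3) (fun s => by
      by_cases hs : (s : ℕ) = 0
      · simpa [hv, hs] using h71 e
      · simpa [hv] using h1 s hs) c]
    have : r ≠ z := fun h => (by decide +kernel : (71 : ℕ) ∉ d1List) (e ▸ h ▸ hz)
    simp [this]
  · obtain ⟨r0, rn, hn, hy⟩ := hne e
    rw [ix, x_row_one hr' t _ (⟨0, by rw [nroots6]; omega⟩ : Fin chevE6.nroots) (by simpa [hv] using h3)
      (Ne.symm r0) (Ne.symm rn) (fun s hs => by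
        have hs' : (s : ℕ) ≠ 0 := fun h => hs (Fin.ext h)
        simpa [hv] using h1 s hs') c]
    simp only [hv]
    congr 1
    by_cases hrz : r = z
    · simp [ix, hrz] ; rw [show chevE6.chainCoeff z 0 (z - 45) = [(1, nC z)] from hrz ▸ hy hrz]
      simp
    · simp [ix, hrz, hn hrz]

theorem row_shape {z : ℕ} (hz : z ∈ d1List) {g : GL chevE6.Idx K} (hg : g ∈ QS (K := K)) :
    (∀ c, c ≠ ix 0 → g.val (ix (z - 45)) c = (1 : Matrix chevE6.Idx chevE6.Idx K) (ix (z - 45)) c) ∧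
      ∀ h ∈ QS (K := K), cf z (g * h) = cf z g + cf z h := by
  have key : ∀ g ∈ QS (K := K), (∀ c, c ≠ ix 0 →
      g.val (ix (z - 45)) c = (1 : Matrix chevE6.Idx chevE6.Idx K) (ix (z - 45)) c) := by
    have h0 : ∀ g ∈ QS (K := K), ∀ c, g.val (ix 0) c = (1 : Matrix chevE6.Idx chevE6.Idx K) (ix 0) c := by
      intro g hg c
      have h := (Top.Ubar_props (rulesE6 K) okE6 hR6 (QS_le_Ubar hg)).1 c
      have e : topE6.nth okE6 hR6 = (⟨0 % 72, by rw [nroots6]; omega⟩ : Fin chevE6.nroots) :=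
        Fin.ext (by decide +kernel : chevE6.neg topE6.th = 0 % 72)
      rw [e] at h
      exact h
    have mulc : ∀ g ∈ QS (K := K), ∀ h ∈ QS (K := K),
        (∀ c, c ≠ ix 0 → g.val (ix (z - 45)) c = (1 : Matrix chevE6.Idx chevE6.Idx K) (ix (z - 45)) c) →
        ∀ c, (g * h).val (ix (z - 45)) c = h.val (ix (z - 45)) c +
          g.val (ix (z - 45)) (ix 0) * (1 : Matrix chevE6.Idx chevE6.Idx K) (ix 0) c := by
      intro g _ h hh hgr c
      have hne : ix (z - 45) ≠ ix 0 := by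
        obtain ⟨-, h2, -, h0', -⟩ := qRow z hz 71 (by decide)
        simp [ix, Fin.ext_iff, Nat.mod_eq_of_lt h2, h0']
      rw [Units.val_mul, Matrix.mul_apply, ← Finset.add_sum_erase _ _ (Finset.mem_univ (ix 0)),
        Finset.sum_eq_single (ix (z - 45)), hgr _ hne, Matrix.one_apply_eq, one_mul, h0 h hh, add_comm]
      · intro j hj hj'
        rw [hgr j (Finset.mem_erase.1 hj).1, Matrix.one_apply_ne hj'.symm, zero_mul]
      · intro h'
        exact absurd (Finset.mem_erase.2 ⟨hne, Finset.mem_univ _⟩) h'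
    intro g hg
    refine Subgroup.closure_induction (p := fun g _ => ∀ c, c ≠ ix 0 →
      g.val (ix (z - 45)) c = (1 : Matrix chevE6.Idx chevE6.Idx K) (ix (z - 45)) c) ?_ ?_ ?_ ?_ hg
    · rintro _ ⟨r, hr, t, rfl⟩ c hc
      refine (row_shape_gen hz hr t c).trans ?_
      rw [if_neg hc, add_zero]
    · intro c _; rfl
    · intro a b ha hb h1 h2 c hc
      rw [mulc a ha b hb h1 c, h2 c hc, Matrix.one_apply_ne (Ne.symm hc), mul_zero, add_zero]
    · intro a ha h1 c hc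
      have := mulc a ha a⁻¹ (inv_mem ha) h1 c
      rw [mul_inv_cancel, Units.val_one, Matrix.one_apply_ne (Ne.symm hc), mul_zero, add_zero] at this
      exact this.symm
  refine ⟨key g hg, fun h hh => ?_⟩
  have hne : ix (z - 45) ≠ ix 0 := by
    obtain ⟨-, h2, -, h0', -⟩ := qRow z hz 71 (by decide)
    simp [ix, Fin.ext_iff, Nat.mod_eq_of_lt h2, h0']
  have hh0 : h.val (ix 0) (ix 0) = 1 := by
    have := ((glSys (rulesE6 K)).raise_Ubar hR6 (QS_le_Ubar hh)).eq_one_apply (a := ix 0) (b := ix 0) (by omega)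
    rwa [glSys_mat, Matrix.one_apply_eq] at this
  simp only [cf]
  rw [Units.val_mul, Matrix.mul_apply, ← Finset.add_sum_erase _ _ (Finset.mem_univ (ix 0)),
    Finset.sum_eq_single (ix (z - 45)), key g hg _ hne, Matrix.one_apply_eq, one_mul, hh0, mul_one, mul_add]
  · intro j hj hj'
    rw [key g hg j (Finset.mem_erase.1 hj).1, Matrix.one_apply_ne hj'.symm, zero_mul]
  · intro h'
    exact absurd (Finset.mem_erase.2 ⟨hne, Finset.mem_univ _⟩) h'

theorem cf_mul {z : ℕ} (hz : z ∈ d1List) {g h : GL chevE6.Idx K} (hg : g ∈ QS (K := K))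
    (hh : h ∈ QS (K := K)) : cf z (g * h) = cf z g + cf z h :=
  (row_shape hz hg).2 h hh

theorem cf_one {z : ℕ} (hz : z ∈ d1List) : cf z (1 : GL chevE6.Idx K) = 0 := by
  have := cf_mul (K := K) hz (one_mem _) (one_mem _)
  rw [one_mul] at this
  exact left_eq_add.1 this

theorem cf_inv {z : ℕ} (hz : z ∈ d1List) {g : GL chevE6.Idx K} (hg : g ∈ QS (K := K)) :
    cf z g⁻¹ = -cf z g := by
  have := cf_mul hz hg (inv_mem hg)
  rw [mul_inv_cancel, cf_one hz] at this
  exact eq_neg_of_add_eq_zero_right this.symm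

theorem cf_X {z r : ℕ} (hz : z ∈ d1List) (hr : r ∈ qList) (t : K) :
    cf z (X r t) = if r = z then t else 0 := by
  have hne : ix (z - 45) ≠ ix 0 := by
    obtain ⟨-, h2, -, h0', -⟩ := qRow z hz 71 (by decide)
    simp [ix, Fin.ext_iff, Nat.mod_eq_of_lt h2, h0']
  rw [cf, row_shape_gen hz hr t, Matrix.one_apply_ne hne, zero_add, if_pos rfl]
  split_ifs
  · rw [← mul_assoc, ← Int.cast_mul, (qTab.2.2.1 z hz).2.1, Int.cast_one, one_mul]
  · rw [mul_zero]

theorem cf_P {z : ℕ} (hz : z ∈ d1List) {L : List ℕ} (hL : ∀ r ∈ L, r ∈ qList) (t : ℕ → K) :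
    cf z ((glSys (rulesE6 K)).P L t) = (L.map fun r => if r = z then t r else 0).sum := by
  induction L with
  | nil => simp [Sys.P_nil, cf_one hz]
  | cons a L ih =>
    rw [Sys.P_cons, cf_mul hz (X_mem_QS (hL a List.mem_cons_self) _), ih fun r hr => hL r (List.mem_cons_of_mem _ hr)]
    · rw [cf_X hz (hL a List.mem_cons_self), List.map_cons, List.sum_cons]
    · exact list_prod_mem fun g hg => by
        obtain ⟨s, hs, rfl⟩ := List.mem_map.1 hg
        exact X_mem_QS (hL s (List.mem_cons_of_mem _ hs)) _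

/-- Additive functions on the radical agree if they agree on root elements. -/
theorem add_ext {f1 f2 : GL chevE6.Idx K → K}
    (a1 : ∀ g ∈ QS (K := K), ∀ h ∈ QS (K := K), f1 (g * h) = f1 g + f1 h)
    (a2 : ∀ g ∈ QS (K := K), ∀ h ∈ QS (K := K), f2 (g * h) = f2 g + f2 h)
    (hgen : ∀ r ∈ qList, ∀ t, f1 (X r t) = f2 (X r t)) : ∀ g ∈ QS (K := K), f1 g = f2 g := by
  have i1 : f1 1 = 0 := by simpa using a1 1 (one_mem _) 1 (one_mem _)
  have i2 : f2 1 = 0 := by simpa using a2 1 (one_mem _) 1 (one_mem _)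
  intro g hg
  refine Subgroup.closure_induction (p := fun g _ => f1 g = f2 g) ?_ ?_ ?_ ?_ hg
  · rintro _ ⟨r, hr, t, rfl⟩; exact hgen r hr t
  · rw [i1, i2]
  · intro a b ha hb h1 h2; rw [a1 a ha b hb, a2 a ha b hb, h1, h2]
  · intro a ha h1
    have e1 := a1 a ha a⁻¹ (inv_mem ha)
    have e2 := a2 a ha a⁻¹ (inv_mem ha)
    rw [mul_inv_cancel, i1] at e1
    rw [mul_inv_cancel, i2] at e2
    rw [eq_neg_of_add_eq_zero_right e1.symm, eq_neg_of_add_eq_zero_right e2.symm, h1]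

/-- Conjugation of root elements by root elements. -/
theorem conj_X {r s : ℕ} (hr : r < 72) (hs : s < 72) (h1 : r ≠ s) (h2 : r ≠ chevE6.neg s) (t u : K) :
    X s u * X r t * (X s u)⁻¹ = X r t *
      ((chevE6.commTerms s r).map fun c => X c.1 ((c.2.1 : K) * u ^ c.2.2.1 * t ^ c.2.2.2)).prod := by
  have h := (glSys (rulesE6 K)).comm s (nroots6 ▸ hs) r (nroots6 ▸ hr) h1 h2 (-u) t
  rw [ChevalleyDatum.commWord, List.map_map] at h
  simp only [Function.comp_def, neg_neg] at h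
  rw [(glSys (rulesE6 K)).x_inv (nroots6 ▸ hs), mul_assoc, h]
  simp only [← mul_assoc]
  rw [(glSys (rulesE6 K)).x_add s (nroots6 ▸ hs), add_neg_cancel, (glSys (rulesE6 K)).x_zero (nroots6 ▸ hs),
    one_mul]

/-- Conjugation by a root element normalising the radical. -/
theorem conj_mem_QS {s : ℕ} (hs : s < 72)
    (tab : ∀ r ∈ qList, r ≠ s ∧ r ≠ chevE6.neg s ∧ ∀ c ∈ chevE6.commTerms s r, c.1 ∈ qList)
    (u : K) {g : GL chevE6.Idx K} (hg : g ∈ QS (K := K)) : X s u * g * (X s u)⁻¹ ∈ QS (K := K) := by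
  refine Subgroup.closure_induction (p := fun g _ => X s u * g * (X s u)⁻¹ ∈ QS (K := K)) ?_ ?_ ?_ ?_ hg
  · rintro _ ⟨r, hr, t, rfl⟩
    obtain ⟨h1, h2, h3⟩ := tab r hr
    show X s u * X r t * (X s u)⁻¹ ∈ QS (K := K)
    rw [conj_X (qTab.1.2 r hr).1 hs h1 h2]
    refine mul_mem (X_mem_QS hr _) (list_prod_mem fun g hg => ?_)
    obtain ⟨c, hc, rfl⟩ := List.mem_map.1 hg
    exact X_mem_QS (h3 c hc) _
  · simp [one_mem]
  · intro a b _ _ h1 h2
    have := mul_mem h1 h2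
    simpa [mul_assoc] using this
  · intro a _ h1
    have := inv_mem h1
    simpa [mul_assoc] using this

/-- The effect of a Levi root element on a coordinate. -/
theorem cf_conj {s z z0 : ℕ} {k : ℤ} (hs : s < 72) (hz : z ∈ d1List) (hz0 : z0 ∈ d1List)
    (tab : ∀ r ∈ qList, r ≠ s ∧ r ≠ chevE6.neg s ∧ (∀ c ∈ chevE6.commTerms s r, c.1 ∈ qList) ∧
      (commSum s r z = if r = z0 then k else 0) ∧
      ∀ c ∈ chevE6.commTerms s r, c.1 = z → c.2.2 = (1, 1))
    (u : K) {g : GL chevE6.Idx K} (hg : g ∈ QS (K := K)) :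
    cf z (X s u * g * (X s u)⁻¹) = cf z g + (k : K) * u * cf z0 g := by
  have tab' : ∀ r ∈ qList, r ≠ s ∧ r ≠ chevE6.neg s ∧ ∀ c ∈ chevE6.commTerms s r, c.1 ∈ qList :=
    fun r hr => ⟨(tab r hr).1, (tab r hr).2.1, (tab r hr).2.2.1⟩
  refine add_ext (f1 := fun g => cf z (X s u * g * (X s u)⁻¹))
    (f2 := fun g => cf z g + (k : K) * u * cf z0 g) ?_ ?_ ?_ g hg
  · intro a ha b hb
    try simp only
    rw [← cf_mul hz (conj_mem_QS hs tab' u ha) (conj_mem_QS hs tab' u hb)]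
    congr 1
    simp [mul_assoc]
  · intro a ha b hb
    try simp only
    rw [cf_mul hz ha hb, cf_mul hz0 ha hb]
    ring
  · intro r hr t
    obtain ⟨h1, h2, h3, h4, h5⟩ := tab r hr
    try simp only
    rw [conj_X (qTab.1.2 r hr).1 hs h1 h2]
    have key : ∀ T : List (ℕ × ℤ × ℕ × ℕ), (∀ c ∈ T, c.1 ∈ qList ∧ (c.1 = z → c.2.2 = (1, 1))) →
        (T.map fun c => X c.1 ((c.2.1 : K) * u ^ c.2.2.1 * t ^ c.2.2.2)).prod ∈ QS (K := K) ∧
        cf z (T.map fun c => X c.1 ((c.2.1 : K) * u ^ c.2.2.1 * t ^ c.2.2.2)).prod =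
          ((((T.filter fun c => c.1 = z).map fun c => c.2.1).sum : ℤ) : K) * u * t := by
      intro T hT
      induction T with
      | nil => simp [one_mem, cf_one hz]
      | cons c T ih =>
        obtain ⟨hc, hcz⟩ := hT c List.mem_cons_self
        obtain ⟨i1, i2⟩ := ih fun d hd => hT d (List.mem_cons_of_mem _ hd)
        rw [List.map_cons, List.prod_cons, List.filter_cons]
        refine ⟨mul_mem (X_mem_QS hc _) i1, ?_⟩
        rw [cf_mul hz (X_mem_QS hc _) i1, cf_X hz hc, i2]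
        by_cases e : c.1 = z
        · simp [e, hcz e]; ring
        · simp [e]
    obtain ⟨k1, k2⟩ := key (chevE6.commTerms s r) fun c hc => ⟨h3 c hc, h5 c hc⟩
    rw [cf_mul hz (X_mem_QS hr _) k1, k2, cf_X hz hr, cf_X hz0 hr]
    rw [commSum] at h4
    rw [h4]
    split_ifs <;> simp

/-- The transformation of coordinates under monomial conjugation. -/
theorem cf_mon {n : GL chevE6.Idx K} {w : List (Fin chevE6.rank)} {a : ℕ → K}
    (ha : ∀ s < chevE6.nroots, ∀ t : K, n * X s t * n⁻¹ = X (act chevE6 w s) (a s * t))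
    (htab : ∀ r ∈ qList, act chevE6 w r ∈ qList) {z : ℕ} (hz : z ∈ d1List) (hz' : act chevE6 w z ∈ d1List)
    (hinj : ∀ r ∈ qList, act chevE6 w r = act chevE6 w z → r = z)
    {g : GL chevE6.Idx K} (hg : g ∈ QS (K := K)) :
    n * g * n⁻¹ ∈ QS (K := K) ∧ cf (act chevE6 w z) (n * g * n⁻¹) = a z * cf z g := by
  have hmem : ∀ g ∈ QS (K := K), n * g * n⁻¹ ∈ QS (K := K) := by
    intro g hg
    refine Subgroup.closure_induction (p := fun g _ => n * g * n⁻¹ ∈ QS (K := K)) ?_ ?_ ?_ ?_ hg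
    · rintro _ ⟨r, hr, t, rfl⟩
      show n * X r t * n⁻¹ ∈ QS (K := K)
      rw [ha r (nroots6 ▸ (qTab.1.2 r hr).1)]
      exact X_mem_QS (htab r hr) _
    · simp [one_mem]
    · intro a b _ _ h1 h2
      have := mul_mem h1 h2
      simpa [mul_assoc] using this
    · intro a _ h1
      have := inv_mem h1
      simpa [mul_assoc] using this
  refine ⟨hmem g hg, add_ext (f1 := fun g => cf (act chevE6 w z) (n * g * n⁻¹))
    (f2 := fun g => a z * cf z g) ?_ ?_ ?_ g hg⟩
  · intro p hp r hr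
    try simp only
    rw [← cf_mul hz' (hmem p hp) (hmem r hr)]
    congr 1
    simp [mul_assoc]
  · intro p hp r hr
    try simp only
    rw [cf_mul hz hp hr, mul_add]
  · intro r hr t
    try simp only
    rw [ha r (nroots6 ▸ (qTab.1.2 r hr).1), cf_X hz' (htab r hr), cf_X hz hr]
    by_cases e : r = z
    · simp [e]
    · rw [if_neg fun h => e (hinj r hr h), if_neg e, mul_zero]

section

variable [Fintype K] {q : ℕ} (hq : IsPrimePow q) (hK : Fintype.card K = q ^ 2)

theorem cf_phi {z : ℕ} (g : GL chevE6.Idx K) : cf z (phi hq hK g) = (cf z g) ^ q := by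
  rw [cf, cf, phi_apply, mul_pow]
  congr 1
  rw [← frobE6_apply hq hK, map_intCast]

include hq hK in
theorem cf_sig {z : ℕ} (hz : z ∈ d1List) {g : GL chevE6.Idx K} (hg : g ∈ QS (K := K)) :
    cf (twE6.root z) ((twistE6 hq hK).sig g) = (symE6.sgn z : K) * (cf z g) ^ q := by
  have hz' := (qTab.2.2.1 z hz).2.2
  have hs : ∀ g ∈ QS (K := K), (twistE6 hq hK).sig g ∈ QS (K := K) := fun g hg =>
    (twistE6 hq hK).sig_US (fun r hr => nroots6 ▸ (qTab.1.2 r hr).1) (fun r hr => (qTab.1.2 r hr).2.2) hg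
  have hG : QS (K := K) ≤ (glSys (rulesE6 K)).Gbar :=
    Twist.US_le_Gbar fun r hr => nroots6 ▸ (qTab.1.2 r hr).1
  refine add_ext (f1 := fun g => cf (twE6.root z) ((twistE6 hq hK).sig g))
    (f2 := fun g => (symE6.sgn z : K) * (cf z g) ^ q) ?_ ?_ ?_ g hg
  · intro a ha b hb
    try simp only
    rw [(twistE6 hq hK).sig_mul a (hG ha) b (hG hb), cf_mul hz' (hs a ha) (hs b hb)]
  · intro a ha b hb
    try simp only
    rw [cf_mul hz ha hb, ← mul_add, ← frobE6_apply hq hK, map_add, frobE6_apply, frobE6_apply]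
  · intro r hr t
    obtain ⟨hr72, -, hrq⟩ := qTab.1.2 r hr
    try simp only
    rw [sig_X hq hK hr72, cf_X hz' hrq, cf_X hz hr]
    by_cases e : r = z
    · simp [e]
    · rw [if_neg, if_neg e, ← frobE6_apply hq hK, map_zero, mul_zero]
      intro h
      apply e
      rw [← (rhoTab.1 r hr72).2.1, h, (rhoTab.1 z (qTab.1.2 z (qTab.2.2.1 z hz).1).1).2.1]

end

end Cfsg.Agent.TwF4Max
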