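import Cfsg.Agent.TwF4Max.Coord

/-!
Fixed elements of the radical: the splitting, the rational ones, the three raising operations
(owner: helper78).
-/

set_option autoImplicit false
set_option linter.unusedSectionVars false

namespace Cfsg.Agent.TwF4Max

open Cfsg.Lie Cfsg.Agent.ChevGrp Cfsg.Agent.ChevTw

theorem splitTab :
    ((qList ++ lList).Nodup ∧ ∀ r < 72, r ∈ qList ++ lList ↔ chevE6.IsPosRoot r) ∧
    (∀ r ∈ lList, twE6.root r ∈ lList ∧ chevE6.commTerms r 0 = [] ∧ r ≠ 0 ∧ 0 ≠ chevE6.neg r ∧ r ∉ qList) ∧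
    (∀ r ∈ lList, ∀ s ∈ lList, ∀ c ∈ chevE6.commTerms r s, c.1 ∈ lList) := by
  decide +kernel

/-- The six representatives of the pairs of degree one, in the order of their weights. -/
def rep : Fin 6 → ℕ := ![48, 49, 52, 54, 55, 66]

theorem repTab : (∀ i, rep i ∈ d1List ∧ rep i < 72 ∧ twE6.root (rep i) ≠ rep i ∧ chevE6.IsPosRoot (rep i)) ∧
    ∀ z ∈ d1List, twE6.root z = z ∨ ∃ i, z = rep i ∨ z = twE6.root (rep i) := by decide +kernel

/-- Constants of the raising operations. -/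
theorem opTab : ∀ e ∈ [(36, 48, 48, (0 : ℤ)), (56, 48, 48, 0), (36, 49, 48, 1), (56, 49, 49, 0), (36, 52, 51, 1),
      (56, 52, 52, 0), (36, 54, 53, 1), (56, 54, 54, 0), (36, 55, 55, 0), (56, 55, 55, 0), (36, 66, 66, 0),
      (56, 66, 55, -1),
      (37, 48, 47, 1), (42, 48, 48, 0), (37, 49, 49, 0), (42, 49, 49, 0), (37, 52, 52, 0), (42, 52, 49, 1),
      (37, 54, 54, 0), (42, 54, 54, 0), (37, 55, 54, 1), (42, 55, 55, 0), (37, 66, 65, 1), (42, 66, 66, 0),
      (39, 48, 48, 0), (39, 49, 49, 0), (39, 52, 52, 0), (39, 54, 52, 1), (39, 55, 55, 0), (39, 66, 66, 0)],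
    e.1 < 72 ∧ e.2.1 ∈ d1List ∧ e.2.2.1 ∈ d1List ∧
    ∀ r ∈ qList, r ≠ e.1 ∧ r ≠ chevE6.neg e.1 ∧ (∀ c ∈ chevE6.commTerms e.1 r, c.1 ∈ qList) ∧
      (commSum e.1 r e.2.1 = if r = e.2.2.1 then e.2.2.2 else 0) ∧
      ∀ c ∈ chevE6.commTerms e.1 r, c.1 = e.2.1 → c.2.2 = (1, 1) := by
  decide +kernel

variable {K : Type*} [Field K]

theorem cf_op {s z z0 : ℕ} {k : ℤ}
    (h : (s, z, z0, k) ∈ [(36, 48, 48, (0 : ℤ)), (56, 48, 48, 0), (36, 49, 48, 1), (56, 49, 49, 0), (36, 52, 51, 1),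
      (56, 52, 52, 0), (36, 54, 53, 1), (56, 54, 54, 0), (36, 55, 55, 0), (56, 55, 55, 0), (36, 66, 66, 0),
      (56, 66, 55, -1),
      (37, 48, 47, 1), (42, 48, 48, 0), (37, 49, 49, 0), (42, 49, 49, 0), (37, 52, 52, 0), (42, 52, 49, 1),
      (37, 54, 54, 0), (42, 54, 54, 0), (37, 55, 54, 1), (42, 55, 55, 0), (37, 66, 65, 1), (42, 66, 66, 0),
      (39, 48, 48, 0), (39, 49, 49, 0), (39, 52, 52, 0), (39, 54, 52, 1), (39, 55, 55, 0), (39, 66, 66, 0)])
    {g : GL chevE6.Idx K} (hg : g ∈ QS (K := K)) :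
    cf z (X s 1 * g * (X s (1 : K))⁻¹) = cf z g + (k : K) * cf z0 g ∧ X s 1 * g * (X s (1 : K))⁻¹ ∈ QS (K := K) := by
  obtain ⟨hs, hz, hz0, tab⟩ := opTab _ h
  refine ⟨?_, conj_mem_QS hs (fun r hr => ⟨(tab r hr).1, (tab r hr).2.1, (tab r hr).2.2.1⟩) 1 hg⟩
  rw [cf_conj hs hz hz0 tab 1 hg, mul_one]

section

variable [Fintype K] {q : ℕ} (hq : IsPrimePow q) (hK : Fintype.card K = q ^ 2)

/-- The deviation of a coordinate from the small field. -/
noncomputable def dev (g : GL chevE6.Idx K) (z : ℕ) : K := (cf z g) ^ q - cf z g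

theorem QS_le_Gbar : QS (K := K) ≤ (glSys (rulesE6 K)).Gbar :=
  Twist.US_le_Gbar fun r hr => nroots6 ▸ (qTab.1.2 r hr).1

theorem enum_pos : Enum (posSet chevE6) (qList ++ lList) :=
  ⟨splitTab.1.1, fun r => ⟨fun h => (splitTab.1.2 r (by
      rcases List.mem_append.1 h with h | h
      · exact (qTab.1.2 r h).1
      · exact (by decide +kernel : ∀ r ∈ lList, r < 72) r h)).1 h,
    fun h => (splitTab.1.2 r (nroots6 ▸ h.1)).2 h⟩⟩

theorem qClosed : UClosed chevE6 lenE6 (htHom chevE6) {r | r ∈ qList} :=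
  hR6.posSet_closed.subset_closed (fun r hr => (qTab.1.2 r hr).2.1) fun r hr s hs _ c hc => by
    show c.1 ∈ qList
    rw [qTab.2.1 r hr s hs c hc]
    decide

theorem lClosed : UClosed chevE6 lenE6 (htHom chevE6) {r | r ∈ lList} :=
  hR6.posSet_closed.subset_closed
    (fun r hr => ((splitTab.1.2 r ((by decide +kernel : ∀ r ∈ lList, r < 72) r hr)).1 (List.mem_append_right _ hr)))
    fun r hr s hs _ c hc => splitTab.2.2 r hr s hs c hc

theorem qEnum : Enum {r | r ∈ qList} qList := ⟨qTab.1.1, fun _ => Iff.rfl⟩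

theorem lEnum : Enum {r | r ∈ lList} lList :=
  ⟨(List.nodup_append.1 splitTab.1.1).2.1, fun _ => Iff.rfl⟩

include hq hK in
/-- A fixed positive element acts on the lowest root group as a fixed element of the radical. -/
theorem split {u : GL chevE6.Idx K} (hu : u ∈ (glSys (rulesE6 K)).Ubar) (hs : (twistE6 hq hK).sig u = u) :
    ∃ g ∈ QS (K := K), (twistE6 hq hK).sig g = g ∧
      ∀ c : K, u * X 0 c * u⁻¹ = g * X 0 c * g⁻¹ := by
  set S := glSys (rulesE6 K) with hS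
  set T := twistE6 hq hK with hT
  obtain ⟨t, rfl⟩ := S.exists_coef hR6 hR6.posSet_closed enum_pos hu
  rw [S.P_append] at hs ⊢
  have hq1 : S.P qList t ∈ QS (K := K) := list_prod_mem fun x hx => by
    obtain ⟨r, hr, rfl⟩ := List.mem_map.1 hx
    exact X_mem_QS hr _
  have hl1 : S.P lList t ∈ S.US {r | r ∈ lList} := list_prod_mem fun x hx => by
    obtain ⟨r, hr, rfl⟩ := List.mem_map.1 hx
    exact S.x_mem_US (T := {r | r ∈ lList}) hr _
  have hllt : ∀ r ∈ ({r | r ∈ lList} : Set ℕ), r < chevE6.nroots := fun r hr => lClosed.lt r hr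
  obtain ⟨t1, e1⟩ := S.exists_coef hR6 qClosed qEnum
    (T.sig_US (fun r hr => nroots6 ▸ (qTab.1.2 r hr).1) (fun r hr => (qTab.1.2 r hr).2.2) hq1)
  obtain ⟨t2, e2⟩ := S.exists_coef hR6 lClosed lEnum (T.sig_US hllt (fun r hr => (splitTab.2.1 r hr).1) hl1)
  rw [T.sig_mul _ (QS_le_Gbar hq1) _ (Twist.US_le_Gbar hllt hl1), e1, e2] at hs
  set t3 : ℕ → K := fun r => if r ∈ qList then t1 r else t2 r with ht3
  have c1 : S.P qList t3 = S.P qList t1 := S.P_congr fun r hr => if_pos hr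
  have c2 : S.P lList t3 = S.P lList t2 := S.P_congr fun r hr => if_neg (splitTab.2.1 r hr).2.2.2.2
  have key := S.coef_unique hR6 hR6.posSet_closed enum_pos (t := t3) (t' := t) (by
    rw [S.P_append, S.P_append, c1, c2, hs])
  refine ⟨S.P qList t, hq1, ?_, fun c => ?_⟩
  · rw [e1, ← c1]
    exact S.P_congr fun r hr => key r ((enum_pos.2 r).1 (List.mem_append_left _ hr))
  · have hc : Commute (S.P lList t) (X 0 c) := by
      refine Commute.list_prod_left _ _ fun x hx => ?_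
      obtain ⟨r, hr, rfl⟩ := List.mem_map.1 hx
      obtain ⟨-, h1, h2, h3, -⟩ := splitTab.2.1 r hr
      exact x_commute S (lClosed.lt r hr) (by rw [nroots6]; omega) h2.symm h3 h1 _ _
    have e : S.P qList t * S.P lList t * X 0 c * (S.P qList t * S.P lList t)⁻¹ =
        S.P qList t * (S.P lList t * X 0 c * (S.P lList t)⁻¹) * (S.P qList t)⁻¹ := by group
    rw [e, hc.eq, mul_inv_cancel_right]

include hq hK in
theorem cf_partner {z : ℕ} (hz : z ∈ d1List) {g : GL chevE6.Idx K} (hg : g ∈ QS (K := K))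
    (hs : (twistE6 hq hK).sig g = g) : cf (twE6.root z) g = (symE6.sgn z : K) * (cf z g) ^ q := by
  have := cf_sig hq hK hz hg
  rwa [hs] at this

include hq hK in
theorem cf_fixed {z : ℕ} (hz : z ∈ d1List) (hf : twE6.root z = z) {g : GL chevE6.Idx K} (hg : g ∈ QS (K := K))
    (hs : (twistE6 hq hK).sig g = g) : dev (q := q) g z = 0 := by
  have e := cf_partner hq hK hz hg hs
  rw [hf, (rhoTab.1 z (qTab.1.2 z (qTab.2.2.1 z hz).1).1).2.2.2.1 hf, Int.cast_one, one_mul] at e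
  rw [dev, ← e, sub_self]

/-- A fixed element of the radical is rational up to its top pair. -/
theorem split_top {g : GL chevE6.Idx K} (hg : g ∈ QS (K := K)) (hs : (twistE6 hq hK).sig g = g)
    (h : ∀ i : Fin 6, i ≠ 5 → dev (q := q) g (rep i) = 0) :
    ∃ m ∈ Mq hq hK, g = m * Gp (q := q) 66 (cf 66 g) := by
  set S := glSys (rulesE6 K) with hS
  obtain ⟨t, ht⟩ := S.exists_coef hR6 qClosed qEnum hg
  have hcf : ∀ z ∈ d1List, cf z g = t z := fun z hz => by
    rw [ht, cf_P hz (fun r hr => hr), List.sum_map_ite_eq,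
      List.count_eq_one_of_mem qTab.1.1 (qTab.2.2.1 z hz).1, one_smul]
    simp
  have hfix : ∀ z ∈ [46, 47, 51, 53, 63, 65, 69, 70], X z (t z) ∈ Mq hq hK := fun z hz => by
    obtain ⟨h1, h2, h3⟩ := (by decide +kernel : ∀ z ∈ [46, 47, 51, 53, 63, 65, 69, 70],
      chevE6.IsPosRoot z ∧ twE6.root z = z ∧ z ∈ d1List) z hz
    refine X_mem_Mq hq hK h1 h2 ?_
    rw [← hcf z h3]
    exact sub_eq_zero.1 (cf_fixed hq hK h3 h2 hg hs)
  have hpair : ∀ i : Fin 6, X (rep i) (t (rep i)) * X (twE6.root (rep i)) (t (twE6.root (rep i))) =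
      Gp (q := q) (rep i) (cf (rep i) g) := fun i => by
    obtain ⟨hz, -⟩ := repTab.1 i
    rw [Gp, ← cf_partner hq hK hz hg hs, hcf _ hz, hcf _ (qTab.2.2.1 _ hz).2.2]
  have hpM : ∀ i : Fin 6, i ≠ 5 → Gp (q := q) (rep i) (cf (rep i) g) ∈ Mq hq hK := fun i hi => by
    obtain ⟨-, -, h1, h2⟩ := repTab.1 i
    exact Gp_mem_Mq hq hK h2 h1 (sub_eq_zero.1 (h i hi))
  set m0 := X 46 (t 46) * X 47 (t 47) * X 51 (t 51) * X 53 (t 53) * X 63 (t 63) * X 65 (t 65) *
    X 69 (t 69) * X 70 (t 70) * Gp (q := q) (rep 0) (cf (rep 0) g) * Gp (q := q) (rep 1) (cf (rep 1) g) *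
    Gp (q := q) (rep 2) (cf (rep 2) g) * Gp (q := q) (rep 3) (cf (rep 3) g) *
    Gp (q := q) (rep 4) (cf (rep 4) g) with hm0
  have hm0M : m0 ∈ Mq hq hK := by
    refine mul_mem (mul_mem (mul_mem (mul_mem (mul_mem (mul_mem (mul_mem (mul_mem (mul_mem (mul_mem
      (mul_mem (mul_mem (hfix 46 ?_) (hfix 47 ?_)) (hfix 51 ?_)) (hfix 53 ?_)) (hfix 63 ?_)) (hfix 65 ?_))
      (hfix 69 ?_)) (hfix 70 ?_)) (hpM 0 ?_)) (hpM 1 ?_)) (hpM 2 ?_)) (hpM 3 ?_)) (hpM 4 ?_) <;> decide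
  have eq1 : g = m0 * Gp (q := q) 66 (cf 66 g) * X 71 (t 71) := by
    have e5 := hpair 5
    rw [show rep 5 = 66 from rfl] at e5
    rw [hm0, ← hpair 0, ← hpair 1, ← hpair 2, ← hpair 3, ← hpair 4, ← e5]
    conv_lhs => rw [ht]
    simp only [qList, Sys.P_cons, Sys.P_nil, mul_one, mul_assoc]
    rfl
  have hcomm : Commute (Gp (q := q) 66 (cf 66 g)) (X 71 (t 71)) := by
    have tab : ∀ r ∈ [66, twE6.root 66], r < 72 ∧ 71 ≠ r ∧ 71 ≠ chevE6.neg r ∧ chevE6.commTerms r 71 = [] := by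
      decide +kernel
    refine Commute.mul_left ?_ ?_
    · obtain ⟨a, b, c, d⟩ := tab 66 (by simp)
      exact x_commute S (nroots6 ▸ a) (by rw [nroots6]; omega) b c d _ _
    · obtain ⟨a, b, c, d⟩ := tab (twE6.root 66) (by simp)
      exact x_commute S (nroots6 ▸ a) (by rw [nroots6]; omega) b c d _ _
  refine ⟨m0 * X 71 (t 71), mul_mem hm0M (X_mem_Mq hq hK (by decide +kernel) (by decide +kernel) ?_), ?_⟩
  · have hG : ∀ {r : ℕ}, r < 72 → ∀ c : K, X r c ∈ S.Gbar := fun hr c => S.x_mem_Gbar (nroots6 ▸ hr) c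
    have hGp : Gp (q := q) 66 (cf 66 g) ∈ S.Gbar :=
      Tw_le_Gbar hq hK (Gp_mem_Tw hq hK (by decide +kernel) (by decide +kernel) _)
    have hGm : m0 * Gp (q := q) 66 (cf 66 g) ∈ S.Gbar := mul_mem (Tw_le_Gbar hq hK hm0M.1) hGp
    have e := hs
    rw [eq1, (twistE6 hq hK).sig_mul _ hGm _ (hG (by omega) _),
      (twistE6 hq hK).sig_mul _ (Tw_le_Gbar hq hK hm0M.1) _ hGp,
      Tw_fixed hq hK hm0M.1, sig_Gp hq hK (by omega) (by decide +kernel),
      sig_X_fix hq hK (by omega) (by decide +kernel)] at e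
    exact X_inj (by omega) (mul_left_cancel e)
  · conv_lhs => rw [eq1]
    rw [mul_assoc, hcomm.eq, ← mul_assoc]

/-- A fixed element of the radical with rational coordinates lies in the subgroup. -/
theorem mem_Mq_of_dev {g : GL chevE6.Idx K} (hg : g ∈ QS (K := K)) (hs : (twistE6 hq hK).sig g = g)
    (h : ∀ i : Fin 6, dev (q := q) g (rep i) = 0) : g ∈ Mq hq hK := by
  obtain ⟨m, hm, e⟩ := split_top hq hK hg hs fun i _ => h i
  rw [e]
  exact mul_mem hm (Gp_mem_Mq hq hK (by decide +kernel) (by decide +kernel) (sub_eq_zero.1 (h 5)))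

include hq hK in
theorem dev_comb {g g' : GL chevE6.Idx K} {z z0 : ℕ} {k : ℤ} (h : cf z g' = cf z g + (k : K) * cf z0 g) :
    dev (q := q) g' z = dev (q := q) g z + (k : K) * dev (q := q) g z0 := by
  simp only [dev, h]
  rw [← frobE6_apply hq hK, map_add, map_mul, map_intCast, frobE6_apply, frobE6_apply]
  ring

/-- The commutator with an element of the radical. -/
theorem comm_cf {g g' : GL chevE6.Idx K} (hg : g ∈ QS (K := K)) (hg' : g' ∈ QS (K := K)) {z : ℕ}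
    (hz : z ∈ d1List) : cf z (g' * g⁻¹) = cf z g' - cf z g := by
  rw [cf_mul hz hg' (inv_mem hg), cf_inv hz hg, sub_eq_add_neg]

include hq hK in
theorem dev_mul_inv {g g' : GL chevE6.Idx K} (hg : g ∈ QS (K := K)) (hg' : g' ∈ QS (K := K)) (i : Fin 6) :
    dev (q := q) (g' * g⁻¹) (rep i) = dev (q := q) g' (rep i) - dev (q := q) g (rep i) := by
  simp only [dev, comm_cf hg hg' (repTab.1 i).1]
  rw [← frobE6_apply hq hK, map_sub, frobE6_apply, frobE6_apply]
  ring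

include hq hK in
/-- The first raising operation. -/
theorem op_a {g : GL chevE6.Idx K} (hg : g ∈ QS (K := K)) (hs : (twistE6 hq hK).sig g = g) :
    Gp (q := q) 56 (1 : K) * g * (Gp (q := q) 56 1)⁻¹ * g⁻¹ ∈ QS (K := K) ∧ ∀ i : Fin 6,
      dev (q := q) (Gp (q := q) 56 (1 : K) * g * (Gp (q := q) 56 1)⁻¹ * g⁻¹) (rep i) =
        ![0, dev (q := q) g 48, 0, 0, 0, -dev (q := q) g 55] i := by
  have e : Gp (q := q) 56 (1 : K) = X 56 1 * X 36 1 := by
    rw [Gp, show twE6.root 56 = 36 by decide +kernel, show symE6.sgn 56 = 1 by decide +kernel, one_pow]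
    simp
  set g1 := X 36 (1 : K) * g * (X 36 (1 : K))⁻¹
  set g2 := X 56 (1 : K) * g1 * (X 56 (1 : K))⁻¹
  have e2 : Gp (q := q) 56 (1 : K) * g * (Gp (q := q) 56 1)⁻¹ = g2 := by
    rw [e]; simp only [g1, g2]; group
  have hg1 : g1 ∈ QS (K := K) := (cf_op (s := 36) (z := 48) (z0 := 48) (k := 0) (by simp) hg).2
  have hg2 : g2 ∈ QS (K := K) := (cf_op (s := 56) (z := 48) (z0 := 48) (k := 0) (by simp) hg1).2
  rw [e2]
  refine ⟨mul_mem hg2 (inv_mem hg), ?_⟩
  have f47 := cf_fixed hq hK (by decide) (by decide +kernel : twE6.root 51 = 51) hg hs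
  have f53 := cf_fixed hq hK (by decide) (by decide +kernel : twE6.root 53 = 53) hg hs
  have A : ∀ {z z0 : ℕ} {k : ℤ}, _ → dev (q := q) g1 z = _ := fun {z z0 k} h =>
    dev_comb hq hK (cf_op (s := 36) (z := z) (z0 := z0) (k := k) h hg).1
  have B : ∀ {z z0 : ℕ} {k : ℤ}, _ → dev (q := q) g2 z = _ := fun {z z0 k} h =>
    dev_comb hq hK (cf_op (s := 56) (z := z) (z0 := z0) (k := k) h hg1).1
  intro i
  rw [dev_mul_inv hq hK hg hg2]
  fin_cases i
  · show dev (q := q) g2 48 - _ = (0 : K)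
    rw [B (z0 := 48) (k := 0) (by simp), A (z0 := 48) (k := 0) (by simp)]
    simp [rep]
  · show dev (q := q) g2 49 - _ = dev (q := q) g 48
    rw [B (z0 := 49) (k := 0) (by simp), A (z0 := 48) (k := 1) (by simp)]
    simp [rep]
  · show dev (q := q) g2 52 - _ = (0 : K)
    rw [B (z0 := 52) (k := 0) (by simp), A (z0 := 51) (k := 1) (by simp), f47]
    simp [rep]
  · show dev (q := q) g2 54 - _ = (0 : K)
    rw [B (z0 := 54) (k := 0) (by simp), A (z0 := 53) (k := 1) (by simp), f53]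
    simp [rep]
  · show dev (q := q) g2 55 - _ = (0 : K)
    rw [B (z0 := 55) (k := 0) (by simp), A (z0 := 55) (k := 0) (by simp)]
    simp [rep]
  · show dev (q := q) g2 66 - _ = -dev (q := q) g 55
    rw [B (z0 := 55) (k := -1) (by simp), A (z := 66) (z0 := 66) (k := 0) (by simp),
      A (z := 55) (z0 := 55) (k := 0) (by simp)]
    simp [rep]

include hq hK in
/-- The second raising operation. -/
theorem op_b {g : GL chevE6.Idx K} (hg : g ∈ QS (K := K)) (hs : (twistE6 hq hK).sig g = g) :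
    Gp (q := q) 42 (1 : K) * g * (Gp (q := q) 42 1)⁻¹ * g⁻¹ ∈ QS (K := K) ∧ ∀ i : Fin 6,
      dev (q := q) (Gp (q := q) 42 (1 : K) * g * (Gp (q := q) 42 1)⁻¹ * g⁻¹) (rep i) =
        ![0, 0, dev (q := q) g 49, 0, dev (q := q) g 54, 0] i := by
  have e : Gp (q := q) 42 (1 : K) = X 42 1 * X 37 1 := by
    rw [Gp, show twE6.root 42 = 37 by decide +kernel, show symE6.sgn 42 = 1 by decide +kernel, one_pow]
    simp
  set g1 := X 37 (1 : K) * g * (X 37 (1 : K))⁻¹
  set g2 := X 42 (1 : K) * g1 * (X 42 (1 : K))⁻¹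
  have e2 : Gp (q := q) 42 (1 : K) * g * (Gp (q := q) 42 1)⁻¹ = g2 := by
    rw [e]; simp only [g1, g2]; group
  have hg1 : g1 ∈ QS (K := K) := (cf_op (s := 37) (z := 49) (z0 := 49) (k := 0) (by simp) hg).2
  have hg2 : g2 ∈ QS (K := K) := (cf_op (s := 42) (z := 49) (z0 := 49) (k := 0) (by simp) hg1).2
  rw [e2]
  refine ⟨mul_mem hg2 (inv_mem hg), ?_⟩
  have f47 := cf_fixed hq hK (by decide) (by decide +kernel : twE6.root 47 = 47) hg hs
  have f65 := cf_fixed hq hK (by decide) (by decide +kernel : twE6.root 65 = 65) hg hs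
  have A : ∀ {z z0 : ℕ} {k : ℤ}, _ → dev (q := q) g1 z = _ := fun {z z0 k} h =>
    dev_comb hq hK (cf_op (s := 37) (z := z) (z0 := z0) (k := k) h hg).1
  have B : ∀ {z z0 : ℕ} {k : ℤ}, _ → dev (q := q) g2 z = _ := fun {z z0 k} h =>
    dev_comb hq hK (cf_op (s := 42) (z := z) (z0 := z0) (k := k) h hg1).1
  intro i
  rw [dev_mul_inv hq hK hg hg2]
  fin_cases i
  · show dev (q := q) g2 48 - _ = (0 : K)
    rw [B (z0 := 48) (k := 0) (by simp), A (z0 := 47) (k := 1) (by simp), f47]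
    simp [rep]
  · show dev (q := q) g2 49 - _ = (0 : K)
    rw [B (z0 := 49) (k := 0) (by simp), A (z0 := 49) (k := 0) (by simp)]
    simp [rep]
  · show dev (q := q) g2 52 - _ = dev (q := q) g 49
    rw [B (z0 := 49) (k := 1) (by simp), A (z := 52) (z0 := 52) (k := 0) (by simp),
      A (z := 49) (z0 := 49) (k := 0) (by simp)]
    simp [rep]
  · show dev (q := q) g2 54 - _ = (0 : K)
    rw [B (z0 := 54) (k := 0) (by simp), A (z0 := 54) (k := 0) (by simp)]
    simp [rep]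
  · show dev (q := q) g2 55 - _ = dev (q := q) g 54
    rw [B (z0 := 55) (k := 0) (by simp), A (z0 := 54) (k := 1) (by simp)]
    simp [rep]
  · show dev (q := q) g2 66 - _ = (0 : K)
    rw [B (z0 := 66) (k := 0) (by simp), A (z0 := 65) (k := 1) (by simp), f65]
    simp [rep]

include hq hK in
/-- The third raising operation. -/
theorem op_c {g : GL chevE6.Idx K} (hg : g ∈ QS (K := K)) :
    X 39 (1 : K) * g * (X 39 1)⁻¹ * g⁻¹ ∈ QS (K := K) ∧ ∀ i : Fin 6,
      dev (q := q) (X 39 (1 : K) * g * (X 39 1)⁻¹ * g⁻¹) (rep i) =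
        ![0, 0, 0, dev (q := q) g 52, 0, 0] i := by
  set g1 := X 39 (1 : K) * g * (X 39 (1 : K))⁻¹
  have hg1 : g1 ∈ QS (K := K) := (cf_op (s := 39) (z := 48) (z0 := 48) (k := 0) (by simp) hg).2
  refine ⟨mul_mem hg1 (inv_mem hg), ?_⟩
  have A : ∀ {z z0 : ℕ} {k : ℤ}, _ → dev (q := q) g1 z = _ := fun {z z0 k} h =>
    dev_comb hq hK (cf_op (s := 39) (z := z) (z0 := z0) (k := k) h hg).1
  intro i
  rw [dev_mul_inv hq hK hg hg1]
  fin_cases i
  · show dev (q := q) g1 48 - _ = (0 : K)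
    rw [A (z0 := 48) (k := 0) (by simp)]; simp [rep]
  · show dev (q := q) g1 49 - _ = (0 : K)
    rw [A (z0 := 49) (k := 0) (by simp)]; simp [rep]
  · show dev (q := q) g1 52 - _ = (0 : K)
    rw [A (z0 := 52) (k := 0) (by simp)]; simp [rep]
  · show dev (q := q) g1 54 - _ = dev (q := q) g 52
    rw [A (z0 := 52) (k := 1) (by simp)]; simp [rep]
  · show dev (q := q) g1 55 - _ = (0 : K)
    rw [A (z0 := 55) (k := 0) (by simp)]; simp [rep]
  · show dev (q := q) g1 66 - _ = (0 : K)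
    rw [A (z0 := 66) (k := 0) (by simp)]; simp [rep]

end

end Cfsg.Agent.TwF4Max
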