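import Cfsg.Agent.TwF4Max.Centraliser
import Cfsg.Agent.TwF4Max.Radical

/-!
An overgroup of the subgroup over the small field contains a conjugate of the lowest root group by a fixed
element of the radical outside the subgroup (owner: helper78).
-/

set_option autoImplicit false
set_option linter.unusedSectionVars false

namespace Cfsg.Agent.TwF4Max

open Cfsg.Lie Cfsg.Agent.ChevGrp Cfsg.Agent.ChevTw Cfsg.Agent.Known.SubG

/-- Orbit indices from numbers. -/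
def oJ (n : ℕ) : Fin twE6.nOrb := ⟨n % 4, Nat.mod_lt _ (by decide)⟩

/-- The word of a list of orbit numbers. -/
def wd (l : List ℕ) : List (Fin chevE6.rank) := oWord (l.map oJ)

theorem movTab :
    (act chevE6 (wd [1, 2, 3, 1, 2, 1, 0]) 71 = 46 ∧ act chevE6 (wd [2, 3, 0, 1, 2, 1, 0]) 71 = 39) ∧
    (chevE6.commTerms 39 42 = [(43, 1, 1, 1)] ∧ chevE6.commTerms 39 37 = [(40, -1, 1, 1)]) ∧
    (∀ l ∈ [[1], [2, 3, 1]], (∀ r ∈ [42, 37, 43, 40], chevE6.IsPosRoot (act chevE6 (wd l) r)) ∧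
      act chevE6 (wd l) 43 ≠ act chevE6 (wd l) 40) ∧
    (∀ r ∈ [42, 37, 43, 40, 39], r < 72 ∧ chevE6.IsPosRoot r) ∧
    (chevE6.simple 1 = 46 ∧ chevE6.simple 3 = 39 ∧
      act chevE6 (wd [1]) 43 = chevE6.simple 2 ∧ act chevE6 (wd [1]) 40 = chevE6.simple 4 ∧
      act chevE6 (wd [2, 3, 1]) 43 = chevE6.simple 0 ∧ act chevE6 (wd [2, 3, 1]) 40 = chevE6.simple 5) := by
  decide +kernel

/-- Words carrying the fixed roots to the lowest one. -/
def lowWords : List (List ℕ) :=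
  [[], [0], [0, 1], [0, 1, 2], [0, 1, 2, 1], [0, 1, 2, 1, 0], [0, 1, 2, 3], [0, 1, 2, 3, 1], [0, 1, 2, 3, 1, 2],
    [0, 1, 2, 3, 1, 2, 1], [0, 1, 2, 3, 1, 0], [0, 1, 2, 3, 1, 2, 0], [0, 1, 2, 3, 1, 2, 0, 1],
    [0, 1, 2, 3, 1, 2, 0, 1, 2], [0, 1, 2, 3, 1, 2, 1, 0], [0, 1, 2, 3, 1, 2, 0, 1, 0],
    [0, 1, 2, 3, 1, 2, 0, 1, 2, 0], [0, 1, 2, 3, 1, 2, 0, 1, 2, 0, 1], [0, 1, 2, 3, 1, 2, 0, 1, 2, 3],
    [0, 1, 2, 3, 1, 2, 0, 1, 2, 3, 0], [0, 1, 2, 3, 1, 2, 0, 1, 2, 3, 0, 1], [0, 1, 2, 3, 1, 2, 0, 1, 2, 3, 0, 1, 2],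
    [0, 1, 2, 3, 1, 2, 0, 1, 2, 3, 0, 1, 2, 1], [0, 1, 2, 3, 1, 2, 0, 1, 2, 3, 0, 1, 2, 1, 0]]

theorem lowTab : ∀ r < 72, twE6.root r = r → ∃ l ∈ lowWords, act chevE6 (wd l) r = 0 := by decide +kernel

variable {K : Type*} [Field K] [Fintype K] {q : ℕ} (hq : IsPrimePow q) (hK : Fintype.card K = q ^ 2)

theorem phi_X_one (r : ℕ) : phi hq hK (X r (1 : K)) = X r 1 := by rw [phi_X, one_pow]

/-- Some conjugate of a long root element by an element of the overgroup is not rational. -/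
theorem exists_moved {H : Subgroup (GL chevE6.Idx K)} (hle : Mq hq hK ≤ H) (hH : H ≤ twistedE6 K q)
    (hne : ¬ H ≤ Mq hq hK) :
    ∃ g ∈ H, phi hq hK (g * X 71 1 * g⁻¹) ≠ g * X 71 1 * g⁻¹ := by
  by_contra hcon
  push Not at hcon
  obtain ⟨g, hg, hgM⟩ := SetLike.not_le_iff_exists.1 hne
  apply hgM
  refine ⟨hH hg, ?_⟩
  set S := glSys (rulesE6 K) with hS
  set d := g⁻¹ * phi hq hK g with hd
  set N : Subgroup (GL chevE6.Idx K) :=
    Subgroup.closure {z | ∃ m ∈ Mq hq hK, z = m * X 71 (1 : K) * m⁻¹} with hN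
  have hNd : ∀ z ∈ N, Commute d z := by
    intro z hz
    refine Subgroup.closure_induction (p := fun z _ => Commute d z) ?_ (Commute.one_right d)
      (fun a b _ _ ha hb => ha.mul_right hb) (fun a _ ha => ha.inv_right) hz
    rintro _ ⟨m, hm, rfl⟩
    have e := hcon (g * m) (mul_mem hg (hle hm))
    rw [map_mul, map_mul, map_inv, map_mul, hm.2, phi_X_one hq hK] at e
    show g⁻¹ * phi hq hK g * (m * X 71 1 * m⁻¹) = m * X 71 1 * m⁻¹ * (g⁻¹ * phi hq hK g)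
    have e' : phi hq hK g * (m * X 71 1 * m⁻¹) * (phi hq hK g)⁻¹ = g * (m * X 71 1 * m⁻¹) * g⁻¹ := by
      simp only [MonoidHom.id_apply] at e
      simpa [mul_assoc] using e
    calc g⁻¹ * phi hq hK g * (m * X 71 1 * m⁻¹)
        = g⁻¹ * (phi hq hK g * (m * X 71 1 * m⁻¹) * (phi hq hK g)⁻¹) * phi hq hK g := by group
      _ = _ := by rw [e']; group
  have hNM : ∀ m ∈ Mq hq hK, ∀ z ∈ N, m * z * m⁻¹ ∈ N := by
    intro m hm z hz
    refine Subgroup.closure_induction (p := fun z _ => m * z * m⁻¹ ∈ N) ?_ (by simp [one_mem])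
      (fun a b _ _ ha hb => by simpa [mul_assoc] using mul_mem ha hb)
      (fun a _ ha => by simpa [mul_assoc] using inv_mem ha) hz
    rintro _ ⟨m', hm', rfl⟩
    exact Subgroup.subset_closure ⟨m * m', mul_mem hm hm', by group⟩
  have hroot : ∀ l : List ℕ, ∃ e : K, e ≠ 0 ∧ X (act chevE6 (wd l) 71) e ∈ N := by
    intro l
    obtain ⟨a, ha0, ha⟩ := S.conjP_nW (rulesE6 K) hR6 (wd l)
    refine ⟨a 71, right_ne_zero_of_mul_eq_one (ha0 71 (by rw [nroots6]; omega)), ?_⟩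
    have := hNM _ (nW_mem hq hK (l.map oJ)) _
      (Subgroup.subset_closure ⟨1, one_mem _, (by simp : X 71 (1 : K) = 1 * X 71 1 * 1⁻¹)⟩)
    rw [show S.nW (oWord (l.map oJ)) * X 71 (1 : K) * (S.nW (oWord (l.map oJ)))⁻¹ =
      X (act chevE6 (wd l) 71) (a 71 * 1) from ha 71 (by rw [nroots6]; omega) 1, mul_one] at this
    exact this
  obtain ⟨⟨h46, h39⟩, ⟨c42, c37⟩, hw, hpos, s1, s3, s2, s4, s0, s5⟩ := movTab
  obtain ⟨e46, e46ne, m46⟩ := hroot [1, 2, 3, 1, 2, 1, 0]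
  obtain ⟨e39, e39ne, m39⟩ := hroot [2, 3, 0, 1, 2, 1, 0]
  rw [h46] at m46
  rw [h39] at m39
  have hnd : g⁻¹ * phi hq hK g ∈ S.Gbar := by
    refine mul_mem (inv_mem (Tw_le_Gbar hq hK (hH hg))) ?_
    refine Subgroup.closure_induction (p := fun z _ => phi hq hK z ∈ S.Gbar) ?_ (by simp [one_mem])
      (fun a b _ _ ha hb => by rw [map_mul]; exact mul_mem ha hb)
      (fun a _ ha => by rw [map_inv]; exact inv_mem ha) (Tw_le_Gbar hq hK (hH hg))
    rintro _ ⟨r, hr, t, rfl⟩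
    show phi hq hK (X r t) ∈ S.Gbar
    rw [phi_X]
    exact S.x_mem_Gbar hr _
  -- the short element
  set f : GL chevE6.Idx K := Gp (q := q) 42 1 with hf
  have hfM : f ∈ Mq hq hK := simple_pair_mem_Mq hq hK (by simp) (one_pow q)
  set k := X 39 e39 * f * (X 39 e39)⁻¹ * f⁻¹ with hk
  have hkN : k ∈ N := by
    have := mul_mem m39 (hNM f hfM _ (inv_mem m39))
    simpa [hk, mul_assoc] using this
  have hfe : f = X 42 1 * X 37 1 := by
    rw [hf, Gp, show twE6.root 42 = 37 by decide +kernel, show symE6.sgn 42 = 1 by decide +kernel, one_pow]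
    simp
  have hk' : k = X 42 (1 : K) * X 43 e39 * (X 37 1 * X 40 (-e39)) * (X 37 1)⁻¹ * (X 42 1)⁻¹ := by
    have a42 := conj_X (K := K) (r := 42) (s := 39) (by omega) (by omega) (by omega) (by decide +kernel) 1 e39
    have a37 := conj_X (K := K) (r := 37) (s := 39) (by omega) (by omega) (by omega) (by decide +kernel) 1 e39
    rw [c42] at a42
    rw [c37] at a37
    simp only [List.map_cons, List.map_nil, List.prod_cons, List.prod_nil, mul_one, pow_one, Int.cast_one,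
      Int.cast_neg, one_mul, neg_one_mul] at a42 a37
    rw [hk, hfe]
    calc X 39 e39 * (X 42 1 * X 37 1) * (X 39 e39)⁻¹ * (X 42 1 * X 37 1)⁻¹
        = (X 39 e39 * X 42 1 * (X 39 e39)⁻¹) * (X 39 e39 * X 37 1 * (X 39 e39)⁻¹) * (X 37 1)⁻¹ *
          (X 42 1)⁻¹ := by group
      _ = _ := by rw [a42, a37]
  have hshort : ∀ l ∈ [[1], [2, 3, 1]], ∀ i : Fin chevE6.rank,
      (act chevE6 (wd l) 43 = chevE6.simple i ∨ act chevE6 (wd l) 40 = chevE6.simple i) →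
      ∃ z ∈ N, z ∈ S.Ubar ∧ sx i z ≠ 0 := by
    intro l hl i hi
    obtain ⟨hp, hne'⟩ := hw l hl
    obtain ⟨a, ha0, ha⟩ := S.conjP_nW (rulesE6 K) hR6 (wd l)
    set n := S.nW (wd l) with hn
    refine ⟨n * k * n⁻¹, hNM _ (nW_mem hq hK (l.map oJ)) _ hkN, ?_⟩
    have hX : ∀ r ∈ [42, 37, 43, 40], ∀ t : K, n * X r t * n⁻¹ = X (act chevE6 (wd l) r) (a r * t) ∧
        n * X r t * n⁻¹ ∈ S.Ubar := fun r hr t => by
      have h1 : n * X r t * n⁻¹ = X (act chevE6 (wd l) r) (a r * t) :=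
        ha r (nroots6 ▸ (hpos r (by simp at hr ⊢; omega)).1) t
      exact ⟨h1, by rw [h1]; exact S.x_mem_US (hp r hr) _⟩
    have e : n * k * n⁻¹ = (n * X 42 1 * n⁻¹) * (n * X 43 e39 * n⁻¹) *
        ((n * X 37 1 * n⁻¹) * (n * X 40 (-e39) * n⁻¹)) * (n * X 37 1 * n⁻¹)⁻¹ * (n * X 42 1 * n⁻¹)⁻¹ := by
      rw [hk']; group
    obtain ⟨E1, U1⟩ := hX 42 (by simp) 1
    obtain ⟨E2, U2⟩ := hX 43 (by simp) e39
    obtain ⟨E3, U3⟩ := hX 37 (by simp) 1
    obtain ⟨E4, U4⟩ := hX 40 (by simp) (-e39)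
    rw [e]
    refine ⟨mul_mem (mul_mem (mul_mem (mul_mem U1 U2) (mul_mem U3 U4)) (inv_mem U3)) (inv_mem U1), ?_⟩
    rw [sx_mul i (mul_mem (mul_mem (mul_mem U1 U2) (mul_mem U3 U4)) (inv_mem U3)) (inv_mem U1),
      sx_mul i (mul_mem (mul_mem U1 U2) (mul_mem U3 U4)) (inv_mem U3), sx_mul i (mul_mem U1 U2) (mul_mem U3 U4),
      sx_mul i U1 U2, sx_mul i U3 U4, sx_inv i U1, sx_inv i U3,
      show ∀ p q r s : K, p + q + (r + s) + -r + -p = q + s from fun p q r s => by ring, E2, E4,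
      sx_X i (hp 43 (by simp)), sx_X i (hp 40 (by simp))]
    have n43 := right_ne_zero_of_mul_eq_one (ha0 43 (by rw [nroots6]; omega))
    have n40 := right_ne_zero_of_mul_eq_one (ha0 40 (by rw [nroots6]; omega))
    rcases hi with hi | hi
    · rw [if_pos hi, if_neg fun h => hne' (hi.trans h.symm), add_zero]
      exact mul_ne_zero n43 e39ne
    · rw [if_pos hi, if_neg fun h => hne' (h.trans hi.symm), zero_add]
      exact mul_ne_zero n40 (neg_ne_zero.2 e39ne)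
  have hall : ∀ i : Fin chevE6.rank, ∃ z ∈ N, z ∈ S.Ubar ∧ sx i z ≠ 0 := by
    rintro ⟨i, hi⟩
    have hi6 : i < 6 := by simpa [chevE6] using hi
    interval_cases i
    · exact hshort [2, 3, 1] (by simp) _ (Or.inl s0)
    · refine ⟨_, m46, S.x_mem_US (by decide +kernel : chevE6.IsPosRoot 46) _, ?_⟩
      rw [sx_X _ (by decide +kernel), if_pos s1.symm]
      exact e46ne
    · exact hshort [1] (by simp) _ (Or.inl s2)
    · refine ⟨_, m39, S.x_mem_US (by decide +kernel : chevE6.IsPosRoot 39) _, ?_⟩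
      rw [sx_X _ (by decide +kernel), if_pos s3.symm]
      exact e39ne
    · exact hshort [1] (by simp) _ (Or.inr s4)
    · exact hshort [2, 3, 1] (by simp) _ (Or.inr s5)
  have h0 := (twE6_ok.isLongest (T := twistE6 hq hK) (fun _ => rfl) rfl).invSet_eq hR6
  have hd1 : d = 1 := eq_one_of_comm hnd h0 fun i => by
    obtain ⟨z, hzN, hzU, hz⟩ := hall i
    refine ⟨z, hzU, hNd z hzN, ?_, hz⟩
    set n := S.nW ((orbE6 hq hK).word twE6.longSeq) with hn
    have hnM : n⁻¹ ∈ Mq hq hK := inv_mem (nW_mem hq hK twE6.longSeq)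
    have h1 := hNd _ (hNM _ hnM z hzN)
    have h2 := (Commute.conj_iff n).2 h1
    simpa [mul_assoc] using h2
  show phi hq hK g = g
  rw [hd, inv_mul_eq_one] at hd1
  exact hd1.symm

/-- A conjugate of the lowest root group by an element of the radical outside the subgroup. -/
theorem exists_cell {H : Subgroup (GL chevE6.Idx K)} (hle : Mq hq hK ≤ H) (hH : H ≤ twistedE6 K q)
    (hne : ¬ H ≤ Mq hq hK) :
    ∃ u ∈ QS (K := K), ∃ c : K, c ≠ 0 ∧ c ^ q = c ∧ (twistE6 hq hK).sig u = u ∧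
      u * X 0 c * u⁻¹ ∈ H ∧ ∃ i : Fin 6, dev (q := q) u (rep i) ≠ 0 := by
  set S := glSys (rulesE6 K) with hS
  set T := twistE6 hq hK with hT
  obtain ⟨g0, hg0, hmov0⟩ := exists_moved hq hK hle hH hne
  have e71 : topE6.tth okE6 = (⟨71 % 72, by rw [nroots6]; omega⟩ : Fin chevE6.nroots) :=
    Fin.ext (by decide +kernel : topE6.th = 71 % 72)
  have e0 : topE6.nth okE6 hR6 = (⟨0 % 72, by rw [nroots6]; omega⟩ : Fin chevE6.nroots) :=
    Fin.ext (by decide +kernel : chevE6.neg topE6.th = 0 % 72)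
  have decomp : ∀ g ∈ twistedE6 K q, ∃ u h : GL chevE6.Idx K, ∃ w v,
      u ∈ S.Ubar ∧ h ∈ S.Hbar ∧ T.sig u = u ∧ T.Comm w ∧ v ∈ S.Ubar ∧ g = u * (h * S.nW w) * v := by
    intro g hg
    obtain ⟨b, hb, w, -, v, hv, e⟩ := S.mem_NF (rulesE6 K) hR6 (Tw_le_Gbar hq hK hg)
    obtain ⟨hc, -, k, hk, -, hbk⟩ := T.fixed_bruhat (rulesE6 K) hR6 hb hv (by rw [← e]; exact Tw_fixed hq hK hg)
    obtain ⟨u, hu, h, hh, rfl⟩ := (S.mem_Bbar (rulesE6 K) hR6).1 hb
    rw [T.sig_mul _ (S.Bbar_le_Gbar (rulesE6 K) hR6 (S.Ubar_le_Bbar hu)) _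
      (S.Bbar_le_Gbar (rulesE6 K) hR6 (S.Hbar_le_Bbar hh)), mul_assoc (T.sig u)] at hbk
    have hu' := (S.Bbar_decomp_unique (rulesE6 K) hR6 hu (T.sig_Ubar hu) hh
      (mul_mem (T.sig_Hbar (rulesE6 K) hR6 hh) hk) hbk).1
    exact ⟨u, h, w, v, hu, hh, hu'.symm, hc, S.US_mono (fun r h => h.1) hv, by rw [e]; simp [mul_assoc]⟩
  obtain ⟨u1, h1, w1, v1, hu1, hh1, -, hc1, hv1, eg⟩ := decomp g0 (hH hg0)
  obtain ⟨a1, la1, ha01, -, hcol1, -⟩ :=
    (mon_Hbar (rulesE6 K) hR6 hh1).mul (rulesE6 K) hR6 (mon_nW (rulesE6 K) hR6 w1)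
  have h71 : 71 < chevE6.nroots := by rw [nroots6]; omega
  have hγfix : twE6.root (act chevE6 w1 71) = act chevE6 w1 71 := by
    have := hc1 71 h71
    rw [show T.ρ 71 = 71 from (by decide +kernel : twE6.root 71 = 71)] at this
    exact this.symm
  obtain ⟨l, -, hl⟩ := lowTab _ (nroots6 ▸ hR6.act_lt w1 h71) hγfix
  obtain ⟨a2, la2, ha02, hconj2, hcol2, hzero2⟩ := mon_nW (rulesE6 K) hR6 (wd l)
  set n := S.nW (wd l) with hn
  set g := n * g0 with hg
  have hnM : n ∈ Mq hq hK := nW_mem hq hK (l.map oJ)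
  have hgH : g ∈ H := mul_mem (hle hnM) hg0
  set γ : Fin chevE6.nroots := ⟨act chevE6 w1 71, hR6.act_lt w1 h71⟩ with hγ
  have hg0e : g0.val (Sum.inr γ) (ix 71) = a1 71 := by
    obtain ⟨-, hvc, -⟩ := Top.Ubar_props (rulesE6 K) okE6 hR6 hv1
    rw [e71] at hvc
    rw [eg]
    simp only [ix]
    rw [mul_colFix _ hvc, Units.val_mul, Matrix.mul_apply, Finset.sum_eq_single (Sum.inr γ : chevE6.Idx)]
    · have hd : u1.val (Sum.inr γ) (Sum.inr γ) = 1 := by
        have := (S.raise_Ubar hR6 hu1).eq_one_apply (a := Sum.inr γ) (b := Sum.inr γ) (by omega)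
        rwa [hS, glSys_mat, Matrix.one_apply_eq] at this
      rw [hd, one_mul, hcol1, if_pos (by simp [hγ])]
    · intro b _ hb
      rw [hcol1, if_neg, mul_zero]
      intro h
      apply hb
      rw [h]
      simp [hγ]
    · simp
  have hge : g.val (ix 0) (ix 71) ≠ 0 := by
    rw [hg, Units.val_mul, Matrix.mul_apply, Finset.sum_eq_single (Sum.inr γ : chevE6.Idx)]
    · rw [hg0e, ix, hcol2, if_pos (by simp [hγ, hl])]
      exact mul_ne_zero (right_ne_zero_of_mul_eq_one (ha02 γ γ.2)) (right_ne_zero_of_mul_eq_one (ha01 71 h71))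
    · intro b _ hb
      rcases b with j | r
      · rw [ix, hzero2, zero_mul]
      · rw [ix, hcol2, if_neg, zero_mul]
        intro h
        apply hb
        congr 1
        refine Fin.ext (hR6.act_inj (wd l) r.2 γ.2 ?_)
        have := congrArg Fin.val (Sum.inr.inj h)
        simp only [hγ, hl] at this ⊢
        omega
    · simp
  obtain ⟨u, h, w, v, hu, hh, hus, -, hv, egg⟩ := decomp g (hH hgH)
  obtain ⟨a, la, ha0, hconj, hcol, -⟩ :=
    (mon_Hbar (rulesE6 K) hR6 hh).mul (rulesE6 K) hR6 (mon_nW (rulesE6 K) hR6 w)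
  obtain ⟨hur, -, -⟩ := Top.Ubar_props (rulesE6 K) okE6 hR6 hu
  obtain ⟨-, hvc, hvx⟩ := Top.Ubar_props (rulesE6 K) okE6 hR6 hv
  rw [e0] at hur
  rw [e71] at hvc
  rw [egg] at hge
  simp only [ix] at hge
  rw [mul_colFix _ hvc, rowFix_mul hur, hcol] at hge
  have hw0 : act chevE6 w 71 = 0 := by
    split_ifs at hge with hh0
    · simpa [act_append, act_nil] using (congrArg Fin.val (Sum.inr.inj hh0)).symm
    · exact absurd rfl hge
  set c := a 71 with hc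
  have hc0 : c ≠ 0 := right_ne_zero_of_mul_eq_one (ha0 71 h71)
  have hy : g * X 71 (1 : K) * g⁻¹ = u * X 0 c * u⁻¹ := by
    have e := hconj 71 h71 (1 : K)
    rw [List.nil_append, hw0, mul_one] at e
    have hvx' : Commute v (X 71 (1 : K)) := by
      have := hvx (1 : K)
      rwa [show topE6.th = 71 from (by decide +kernel)] at this
    calc g * X 71 (1 : K) * g⁻¹ = u * (h * S.nW w) * (v * X 71 1 * v⁻¹) * (h * S.nW w)⁻¹ * u⁻¹ := by
          rw [egg]; group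
      _ = u * ((h * S.nW w) * X 71 1 * (h * S.nW w)⁻¹) * u⁻¹ := by
          rw [hvx'.eq, mul_inv_cancel_right]; group
      _ = _ := by rw [show X 71 (1 : K) = S.x 71 1 from rfl, e]
  have hyH : u * X 0 c * u⁻¹ ∈ H := by
    rw [← hy]
    exact mul_mem (mul_mem hgH (hle (X_mem_Mq hq hK (by decide +kernel) (by decide +kernel) (one_pow q))))
      (inv_mem hgH)
  have hcq : c ^ q = c := by
    have hG : u ∈ S.Gbar := S.Bbar_le_Gbar (rulesE6 K) hR6 (S.Ubar_le_Bbar hu)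
    have hX : X 0 c ∈ S.Gbar := S.x_mem_Gbar (by rw [nroots6]; omega) _
    have e := Tw_fixed hq hK (hH hyH)
    rw [sig_conj hG hX hus, sig_X_fix hq hK (by omega) (by decide +kernel)] at e
    exact X_inj (by omega) (mul_left_cancel (mul_right_cancel e))
  obtain ⟨r, hr, hrs, hru⟩ := split hq hK hu hus
  refine ⟨r, hr, c, hc0, hcq, hrs, by rw [← hru]; exact hyH, ?_⟩
  by_contra hcon
  push Not at hcon
  apply hmov0
  have hr' : phi hq hK r = r := (mem_Mq_of_dev hq hK hr hrs hcon).2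
  have e : g0 * X 71 (1 : K) * g0⁻¹ = n⁻¹ * (r * X 0 c * r⁻¹) * n := by
    rw [← hru, ← hy, hg]; group
  rw [e, map_mul, map_mul, map_mul, map_mul, map_inv, map_inv, hnM.2, hr', phi_X, hcq]
  rfl

end Cfsg.Agent.TwF4Max
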